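import Cfsg.Agent.H71.MtDef
import Cfsg.Agent.JY.SzC
import Cfsg.Agent.Suzuki.Sub2
import Cfsg.Agent.Suzuki.Gen

/-!
# S4351, piece P0 (helper60): the data `SzD` for the Suzuki groups
-/

set_option autoImplicit false
set_option linter.style.haveILetI false
set_option linter.unusedSectionVars false

namespace Cfsg.Agent.JY.SzD0

open Subgroup Cfsg Cfsg.Agent.Suz Cfsg.Agent.H71.Mt

section Explicit

variable {F : Type*} [Field F] [Fintype F] [CharP F 2] {m : ℕ}
  (hm : 1 ≤ m) (hF : Fintype.card F = 2 ^ (2 * m + 1))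

variable (F m) in
/-- the automorphism -/
noncomputable def thE : F ≃+* F :=
  RingEquiv.ofBijective (th F m) ⟨(th F m).injective, Finite.injective_iff_surjective.1 (th F m).injective⟩

theorem thE_apply (x : F) : thE F m x = th F m x := rfl

/-- coordinate `a` -/
def aF (g : Cfsg.Sz F m) : F := g.1.1 0 1
/-- coordinate `b` -/
def bF (g : Cfsg.Sz F m) : F := g.1.1 1 3
/-- coordinate `κ` -/
noncomputable def kF (g : Cfsg.Sz F m) : F := th F m (g.1.1 1 1)

theorem aF_tS (a b : F) : aF (tS hF a b) = a := rfl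
theorem bF_tS (a b : F) : bF (tS hF a b) = b := rfl
theorem kF_hS (μ : Fˣ) : kF (hS hF μ) = th F m (μ : F) := rfl

include hF in
theorem th2 (x : F) : th F m (th F m x) = x * x := by rw [th_th hF, pow_two]

theorem tS_sq (a b : F) : tS hF a b * tS hF a b = tS hF 0 (th F m a * a) := by
  rw [tS_mul, CharTwo.add_self_eq_zero]
  congr 1
  rw [CharTwo.add_self_eq_zero, zero_add]

theorem hS_conj (μ : Fˣ) (a b : F) : hS hF μ * tS hF a b * (hS hF μ)⁻¹ =
    tS hF (th F m μ * a) ((μ : F) ^ 2 * th F m μ * b) := by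
  rw [hS_mul_tS, mul_inv_cancel_right]

theorem comm_tS (a c : F) : tS hF a 0 * tS hF c 0 * (tS hF a 0)⁻¹ * (tS hF c 0)⁻¹ =
    tS hF 0 (th F m a * c + th F m c * a) := by
  rw [mul_inv_eq_iff_eq_mul, mul_inv_eq_iff_eq_mul, tS_mul, tS_mul, tS_mul]
  congr 1
  · ring
  · rw [map_zero]
    have h2 : (2 : F) = 0 := CharTwo.two_eq_zero
    simp only [zero_mul, add_zero, zero_add]
    linear_combination (-(th F m c * a)) * h2

include hF in
theorem exists_lam {x : F} (hx : x ≠ 0) : ∃ l : F, l ≠ 0 ∧ l * th F m l = x := by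
  obtain ⟨μ, hμ⟩ := exists_sq_theta hF hx
  refine ⟨th F m μ, ?_, ?_⟩
  · rw [Ne, map_eq_zero]; exact μ.ne_zero
  · rw [th2 hF, ← hμ]; ring

include hF hm in
theorem exists_ne_th : ∃ x : F, th F m x + x ≠ 0 := by
  by_contra hcon
  push Not at hcon
  have h1 : ∀ x : F, th F m x = x := by
    intro x
    exact CharTwo.add_eq_zero.1 (hcon x)
  have h2 : ∀ x : F, x = 0 ∨ x = 1 := by
    intro x
    have h3 := th2 hF x
    rw [h1, h1] at h3
    by_cases hx : x = 0
    · exact Or.inl hx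
    · right
      exact (mul_right_cancel₀ hx (by rw [one_mul]; exact h3)).symm
  have h3 : Fintype.card F ≤ 2 := by
    classical
    have h4 : (Finset.univ : Finset F) ⊆ {0, 1} := by
      intro x _
      rcases h2 x with h | h <;> simp [h]
    have h5 := Finset.card_le_card h4
    rw [Finset.card_univ] at h5
    exact h5.trans Finset.card_le_two
  rw [hF] at h3
  have h4 : 2 ^ (2 * 1 + 1) ≤ 2 ^ (2 * m + 1) := Nat.pow_le_pow_right (by norm_num) (by omega)
  norm_num at h4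
  omega

/-- matrices over the prime field -/
def A0 : Matrix (Fin 4) (Fin 4) (ZMod 2) := !![1, 0, 1, 1; 0, 1, 0, 1; 0, 0, 1, 0; 0, 0, 0, 1]
def B0 : Matrix (Fin 4) (Fin 4) (ZMod 2) := !![1, 1, 1, 1; 0, 1, 1, 0; 0, 0, 1, 1; 0, 0, 0, 1]
def W0 : Matrix (Fin 4) (Fin 4) (ZMod 2) := !![0, 0, 0, 1; 0, 0, 1, 0; 0, 1, 0, 0; 1, 0, 0, 0]

theorem dec5 : (A0 * W0) ^ 5 = 1 := by decide +kernel

theorem decN : B0 * (A0 * W0) = (A0 * W0) ^ 2 * B0 ∨ B0 * (A0 * W0) = (A0 * W0) ^ 3 * B0 := by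
  decide +kernel

variable (F) in
/-- the prime field -/
def ph : Matrix (Fin 4) (Fin 4) (ZMod 2) →+* Matrix (Fin 4) (Fin 4) F :=
  (ZMod.castHom (dvd_refl 2) F).mapMatrix

theorem ph_A : Tm (th F m) (0 : F) 1 = ph F A0 := by
  ext i j
  fin_cases i <;> fin_cases j <;> simp [Tm, ph, A0]

theorem ph_B : Tm (th F m) (1 : F) 0 = ph F B0 := by
  ext i j
  fin_cases i <;> fin_cases j <;> simp [Tm, ph, B0]

theorem ph_W : wm F = ph F W0 := by
  ext i j
  fin_cases i <;> fin_cases j <;> simp [wm, ph, W0]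

theorem five_mat : (Tm (th F m) (0 : F) 1 * wm F) ^ 5 = 1 := by
  rw [ph_A, ph_W, ← RingHom.map_mul, ← RingHom.map_pow, dec5, RingHom.map_one]

theorem nrm_mat : Tm (th F m) (1 : F) 0 * (Tm (th F m) (0 : F) 1 * wm F) =
    (Tm (th F m) (0 : F) 1 * wm F) ^ 2 * Tm (th F m) (1 : F) 0 ∨
    Tm (th F m) (1 : F) 0 * (Tm (th F m) (0 : F) 1 * wm F) =
    (Tm (th F m) (0 : F) 1 * wm F) ^ 3 * Tm (th F m) (1 : F) 0 := by
  rw [ph_A, ph_W, ph_B, ← RingHom.map_mul, ← RingHom.map_mul, ← RingHom.map_pow, ← RingHom.map_mul,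
    ← RingHom.map_pow, ← RingHom.map_mul]
  rcases decN with h2 | h2
  · left; rw [h2]
  · right; rw [h2]

theorem sz_ext {g h : Cfsg.Sz F m} (H : g.1.1 = h.1.1) : g = h := Subtype.ext (Subtype.ext H)

theorem sz_mul (g h : Cfsg.Sz F m) : (g * h).1.1 = g.1.1 * h.1.1 := rfl

theorem sz_pow (g : Cfsg.Sz F m) (n : ℕ) : (g ^ n).1.1 = g.1.1 ^ n := by
  induction n with
  | zero => rfl
  | succ n ih => rw [pow_succ, pow_succ, sz_mul, ih]

theorem five : (tS hF (0 : F) 1 * wS hF) ^ 5 = 1 := by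
  apply sz_ext
  rw [sz_pow, sz_mul]
  exact five_mat

theorem nrm : tS hF (1 : F) 0 * (tS hF 0 1 * wS hF) * (tS hF 1 0)⁻¹ = (tS hF (0 : F) 1 * wS hF) ^ 2 ∨
    tS hF (1 : F) 0 * (tS hF 0 1 * wS hF) * (tS hF 1 0)⁻¹ = (tS hF (0 : F) 1 * wS hF) ^ 3 := by
  rcases nrm_mat (F := F) (m := m) with h | h
  · left
    rw [mul_inv_eq_iff_eq_mul]
    apply sz_ext
    rw [sz_mul, sz_mul, sz_mul, sz_pow, sz_mul]
    exact h
  · right
    rw [mul_inv_eq_iff_eq_mul]
    apply sz_ext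
    rw [sz_mul, sz_mul, sz_mul, sz_pow, sz_mul]
    exact h

theorem mem_ZT' {g : Cfsg.Sz F m} : g ∈ ZT hF ↔ ∃ b, g = tS hF 0 b := mem_ZT hF

theorem tS_inj {a b c d : F} (h : tS hF a b = tS hF c d) : a = c ∧ b = d :=
  ⟨by rw [← aF_tS hF a b, h, aF_tS], by rw [← bF_tS hF a b, h, bF_tS]⟩

include hm in
/-- the data -/
theorem szD : SzD (thE F m) (TT hF) (ZT hF) (HH hF) (wS hF) (tS hF 1 0)
    (aF : Cfsg.Sz F m → F) bF kF where
  char := inferInstance
  card := by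
    rw [hF]
    calc 8 = 2 ^ (2 * 1 + 1) := by norm_num
      _ ≤ 2 ^ (2 * m + 1) := Nat.pow_le_pow_right (by norm_num) (by omega)
  theta := fun x => th2 hF x
  ES := by
    intro g hg
    obtain ⟨b, rfl⟩ := (mem_ZT hF).1 hg
    exact tS_mem_TT hF 0 b
  Ecen := by
    intro e he s hs
    obtain ⟨b, rfl⟩ := (mem_ZT hF).1 he
    obtain ⟨c, d, rfl⟩ := (mem_TT hF).1 hs
    rw [tS_mul, tS_mul, map_zero, zero_mul, mul_zero, zero_add, add_zero, add_zero, add_zero, add_comm]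
  Esq := by
    intro e he
    obtain ⟨b, rfl⟩ := (mem_ZT hF).1 he
    rw [tS_sq, mul_zero, tS_zero]
  Ssq := by
    intro s hs
    obtain ⟨c, d, rfl⟩ := (mem_TT hF).1 hs
    rw [tS_sq]
    exact (mem_ZT hF).2 ⟨_, rfl⟩
  a_mul := by
    intro s hs r hr
    obtain ⟨a, b, rfl⟩ := (mem_TT hF).1 hs
    obtain ⟨c, d, rfl⟩ := (mem_TT hF).1 hr
    rw [tS_mul, aF_tS, aF_tS, aF_tS]
  a_zero := by
    intro s hs
    obtain ⟨a, b, rfl⟩ := (mem_TT hF).1 hs
    rw [aF_tS, mem_ZT]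
    constructor
    · rintro rfl; exact ⟨b, rfl⟩
    · rintro ⟨c, hc⟩
      exact (tS_inj hF hc).1
  a_surj := fun x => ⟨tS hF x 0, tS_mem_TT hF x 0, rfl⟩
  b_mul := by
    intro e he f hf
    obtain ⟨b, rfl⟩ := (mem_ZT hF).1 he
    obtain ⟨c, rfl⟩ := (mem_ZT hF).1 hf
    rw [tS_mul, bF_tS, bF_tS, bF_tS, mul_zero, add_zero]
  b_zero := by
    intro e he
    obtain ⟨b, rfl⟩ := (mem_ZT hF).1 he
    rw [bF_tS]
    constructor
    · rintro rfl; exact tS_zero hF
    · intro h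
      rw [← tS_zero hF] at h
      exact (tS_inj hF h).2
  b_surj := fun x => ⟨tS hF 0 x, (mem_ZT hF).2 ⟨x, rfl⟩, rfl⟩
  b_sq := by
    intro s hs
    obtain ⟨a, b, rfl⟩ := (mem_TT hF).1 hs
    rw [tS_sq, bF_tS, aF_tS, thE_apply, mul_comm]
  comm := by
    intro e he
    obtain ⟨x, rfl⟩ := (mem_ZT hF).1 he
    by_cases hx : x = 0
    · rw [hx, tS_zero]; exact one_mem _
    obtain ⟨a0, ha0⟩ := exists_ne_th hm hF
    obtain ⟨l, hl, hlx⟩ := exists_lam hF (div_ne_zero hx ha0)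
    have h1 := comm_tS hF (l * a0) l
    have h2 : th F m (l * a0) * l + th F m l * (l * a0) = x := by
      rw [map_mul]
      have h3 : l * th F m l * (th F m a0 + a0) = x := by
        rw [hlx, div_mul_cancel₀ _ ha0]
      rw [← h3]; ring
    rw [h2] at h1
    rw [← h1]
    exact Subgroup.commutator_mem_commutator (tS_mem_TT hF _ _) (tS_mem_TT hF _ _)
  Kcomm := by
    rintro _ ⟨μ, rfl⟩ _ ⟨ν, rfl⟩
    rw [hS_mul, hS_mul, mul_comm]
  κ_mul := by
    rintro _ ⟨μ, rfl⟩ _ ⟨ν, rfl⟩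
    rw [hS_mul, kF_hS, kF_hS, kF_hS, Units.val_mul, map_mul]
  κ_ne := by
    rintro _ ⟨μ, rfl⟩
    rw [kF_hS, Ne, map_eq_zero]
    exact μ.ne_zero
  κ_one := by
    rintro _ ⟨μ, rfl⟩ h
    rw [kF_hS] at h
    have h1 : (μ : F) = 1 := (th F m).injective (by rw [h, map_one])
    have h2 : μ = 1 := Units.ext h1
    rw [h2, hS_one]
  κ_surj := by
    intro x hx
    obtain ⟨y, hy⟩ := (thE F m).surjective x
    have hy0 : y ≠ 0 := by rintro rfl; rw [map_zero] at hy; exact hx hy.symm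
    exact ⟨hS hF (Units.mk0 y hy0), hS_mem_HH hF _, hy⟩
  KS := by
    rintro _ ⟨μ, rfl⟩ s hs
    obtain ⟨a, b, rfl⟩ := (mem_TT hF).1 hs
    rw [hS_conj]; exact tS_mem_TT hF _ _
  KE := by
    rintro _ ⟨μ, rfl⟩ s hs
    obtain ⟨b, rfl⟩ := (mem_ZT hF).1 hs
    rw [hS_conj, mul_zero]; exact (mem_ZT hF).2 ⟨_, rfl⟩
  Ka := by
    rintro _ ⟨μ, rfl⟩ s hs
    obtain ⟨a, b, rfl⟩ := (mem_TT hF).1 hs
    rw [hS_conj, aF_tS, aF_tS, kF_hS]
  Kb := by
    rintro _ ⟨μ, rfl⟩ s hs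
    obtain ⟨b, rfl⟩ := (mem_ZT hF).1 hs
    rw [hS_conj, bF_tS, bF_tS, kF_hS, thE_apply, th2 hF]
    ring
  ww := wS_mul_wS hF
  wK := by
    rintro _ ⟨μ, rfl⟩
    rw [wS_mul_hS, mul_assoc, wS_mul_wS, mul_one, hS_inv]
  bruhat := by
    intro g
    rcases bruhatS hF hm g with ⟨a, b, μ, rfl⟩ | ⟨a, b, c, d, μ, rfl⟩
    · exact Or.inl ⟨_, tS_mem_TT hF a b, _, hS_mem_HH hF μ, rfl⟩
    · right
      refine ⟨_, tS_mem_TT hF a b, _, hS_mem_HH hF μ⁻¹, (hS hF μ)⁻¹ * tS hF c d * hS hF μ, ?_, ?_⟩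
      · have h1 := hS_conj hF μ⁻¹ c d
        rw [← hS_inv, inv_inv] at h1
        rw [h1]; exact tS_mem_TT hF _ _
      · have h2 := wS_mul_hS hF μ
        have h3 : hS hF μ⁻¹ * wS hF = wS hF * hS hF μ := h2.symm
        calc tS hF a b * wS hF * tS hF c d * hS hF μ
            = tS hF a b * (wS hF * hS hF μ) * ((hS hF μ)⁻¹ * tS hF c d * hS hF μ) := by group
          _ = _ := by rw [← h3]; group
  s0S := tS_mem_TT hF 1 0
  s0a := by rw [aF_tS]; exact one_ne_zero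
  x0ne := by
    rw [tS_sq, map_one, mul_one]
    intro h
    have h1 : (Tm (th F m) (0 : F) 1 * wm F) = 1 := congrArg (fun g : Cfsg.Sz F m => g.1.1) h
    have h2 := congrFun (congrFun h1 0) 1
    simp [Tm, wm, Matrix.mul_apply, Fin.sum_univ_succ] at h2
  x0five := by
    rw [tS_sq, map_one, mul_one]; exact five hF
  x0nrm := by
    rw [tS_sq, map_one, mul_one]; exact nrm hF

end Explicit

/-- transport along an isomorphism -/
theorem comap {X Y : Type*} [Group X] [Group Y] {F : Type*} [Field F] [Fintype F] {θ : F ≃+* F}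
    {S E K : Subgroup Y} {w s0 : Y} {a b κ : Y → F} (D : SzD θ S E K w s0 a b κ) (e : X ≃* Y) :
    SzD θ (S.comap e.toMonoidHom) (E.comap e.toMonoidHom) (K.comap e.toMonoidHom) (e.symm w) (e.symm s0)
      (fun x => a (e x)) (fun x => b (e x)) (fun x => κ (e x)) where
  char := D.char
  card := D.card
  theta := D.theta
  ES := fun x hx => D.ES hx
  Ecen := fun x hx y hy => e.injective (by rw [map_mul, map_mul]; exact D.Ecen _ hx _ hy)
  Esq := fun x hx => e.injective (by rw [map_mul, map_one]; exact D.Esq _ hx)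
  Ssq := fun x hx => by
    change e (x * x) ∈ E
    rw [map_mul]; exact D.Ssq _ hx
  a_mul := fun x hx y hy => by
    change a (e (x * y)) = _
    rw [map_mul]; exact D.a_mul _ hx _ hy
  a_zero := fun x hx => D.a_zero _ hx
  a_surj := fun x => by
    obtain ⟨s, hs, h⟩ := D.a_surj x
    refine ⟨e.symm s, ?_, ?_⟩
    · change e (e.symm s) ∈ S
      rw [e.apply_symm_apply]; exact hs
    · change a (e (e.symm s)) = x
      rw [e.apply_symm_apply]; exact h
  b_mul := fun x hx y hy => by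
    change b (e (x * y)) = _
    rw [map_mul]; exact D.b_mul _ hx _ hy
  b_zero := fun x hx => by
    have h1 := D.b_zero _ hx
    refine h1.trans ?_
    exact e.map_eq_one_iff
  b_surj := fun x => by
    obtain ⟨s, hs, h⟩ := D.b_surj x
    refine ⟨e.symm s, ?_, ?_⟩
    · change e (e.symm s) ∈ E
      rw [e.apply_symm_apply]; exact hs
    · change b (e (e.symm s)) = x
      rw [e.apply_symm_apply]; exact h
  b_sq := fun x hx => by
    change b (e (x * x)) = _
    rw [map_mul]; exact D.b_sq _ hx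
  comm := by
    intro x hx
    have h1 : ⁅S, S⁆ ≤ (⁅S.comap e.toMonoidHom, S.comap e.toMonoidHom⁆).map e.toMonoidHom := by
      rw [Subgroup.map_commutator, Subgroup.map_comap_eq_self_of_surjective e.surjective]
    obtain ⟨y, hy, hyx⟩ := h1 (D.comm hx)
    have h2 : y = x := e.injective hyx
    rw [← h2]; exact hy
  Kcomm := fun x hx y hy => e.injective (by rw [map_mul, map_mul]; exact D.Kcomm _ hx _ hy)
  κ_mul := fun x hx y hy => by
    change κ (e (x * y)) = _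
    rw [map_mul]; exact D.κ_mul _ hx _ hy
  κ_ne := fun x hx => D.κ_ne _ hx
  κ_one := fun x hx h => e.injective (by rw [map_one]; exact D.κ_one _ hx h)
  κ_surj := fun x hx => by
    obtain ⟨s, hs, h⟩ := D.κ_surj x hx
    refine ⟨e.symm s, ?_, ?_⟩
    · change e (e.symm s) ∈ K
      rw [e.apply_symm_apply]; exact hs
    · change κ (e (e.symm s)) = x
      rw [e.apply_symm_apply]; exact h
  KS := fun k hk s hs => by
    change e (k * s * k⁻¹) ∈ S
    rw [map_mul, map_mul, map_inv]; exact D.KS _ hk _ hs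
  KE := fun k hk s hs => by
    change e (k * s * k⁻¹) ∈ E
    rw [map_mul, map_mul, map_inv]; exact D.KE _ hk _ hs
  Ka := fun k hk s hs => by
    change a (e (k * s * k⁻¹)) = _
    rw [map_mul, map_mul, map_inv]; exact D.Ka _ hk _ hs
  Kb := fun k hk s hs => by
    change b (e (k * s * k⁻¹)) = _
    rw [map_mul, map_mul, map_inv]; exact D.Kb _ hk _ hs
  ww := by rw [← map_mul, D.ww, map_one]
  wK := fun k hk => by
    apply e.injective
    rw [map_mul, map_mul, map_inv, e.apply_symm_apply]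
    exact D.wK _ hk
  bruhat := fun g => by
    have hS : ∀ s ∈ S, e.symm s ∈ S.comap e.toMonoidHom := fun s hs => by
      change e (e.symm s) ∈ S
      rw [e.apply_symm_apply]; exact hs
    have hK : ∀ s ∈ K, e.symm s ∈ K.comap e.toMonoidHom := fun s hs => by
      change e (e.symm s) ∈ K
      rw [e.apply_symm_apply]; exact hs
    rcases D.bruhat (e g) with ⟨s, hs, k, hk, h⟩ | ⟨s, hs, k, hk, r, hr, h⟩
    · refine Or.inl ⟨e.symm s, hS s hs, e.symm k, hK k hk, ?_⟩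
      rw [← map_mul, ← h, e.symm_apply_apply]
    · refine Or.inr ⟨e.symm s, hS s hs, e.symm k, hK k hk, e.symm r, hS r hr, ?_⟩
      rw [← map_mul, ← map_mul, ← map_mul, ← h, e.symm_apply_apply]
  s0S := by
    change e (e.symm s0) ∈ S
    rw [e.apply_symm_apply]; exact D.s0S
  s0a := by
    change a (e (e.symm s0)) ≠ 0
    rw [e.apply_symm_apply]; exact D.s0a
  x0ne := by
    rw [← map_mul, ← map_mul]
    intro h
    exact D.x0ne ((e.symm.map_eq_one_iff).1 h)
  x0five := by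
    rw [← map_mul, ← map_mul, ← map_pow, D.x0five, map_one]
  x0nrm := by
    rw [← map_mul, ← map_mul, ← map_pow, ← map_pow, ← map_inv, ← map_mul, ← map_mul]
    rcases D.x0nrm with h | h
    · left; rw [h]
    · right; rw [h]

/-- [P0] -/
theorem exists_szD {X : Type*} [Group X] (hX : Cfsg.Lie.IsoSuzuki X) :
    ∃ (F : Type) (_ : Field F) (_ : Fintype F) (θ : F ≃+* F) (S E K : Subgroup X) (w s0 : X) (a b κ : X → F),
      Cfsg.Agent.H71.Mt.SzD θ S E K w s0 a b κ := by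
  obtain ⟨F, i1, i2, m, hm, hF, ⟨e⟩⟩ := hX
  haveI := charP_two hF
  obtain ⟨f⟩ := nonempty_lieEquiv hm hF
  exact ⟨F, i1, i2, _, _, _, _, _, _, _, _, _, comap (szD hm hF) (e.trans f.symm)⟩

end Cfsg.Agent.JY.SzD0
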