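import Mathlib

/-!
# Pieces (A), (C), (D) of S4781
-/

set_option autoImplicit false
set_option linter.style.haveILetI false

namespace Cfsg.Agent.JY.S4781A

theorem num {r k m k' n : ℕ} (hr : 2 ≤ r) (hm : 1 ≤ m) (hmk : m < k) (hk' : 1 ≤ k')
    (h : r ^ k - 1 = n * (r ^ m - 1)) (hn : n ∣ r ^ k' - 1) : k ≤ k' := by
  by_contra hcon
  push Not at hcon
  have hrp : ∀ a : ℕ, 1 ≤ r ^ a := fun a => Nat.one_le_pow _ _ (by omega)
  have hmono : ∀ a b : ℕ, a ≤ b → r ^ a ≤ r ^ b := fun a b hab => Nat.pow_le_pow_right (by omega) hab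
  have hinj : Function.Injective (fun a : ℕ => r ^ a) := Nat.pow_right_injective hr
  -- m ∣ k
  have hmd : m ∣ k := by
    have h1 : r ^ m - 1 ∣ r ^ k - 1 := ⟨n, by rw [h]; ring⟩
    have h2 := Nat.pow_sub_one_gcd_pow_sub_one r m k
    rw [Nat.gcd_eq_left h1] at h2
    have h3 : r ^ m = r ^ Nat.gcd m k := by
      have := hrp m
      have := hrp (Nat.gcd m k)
      omega
    have h4 : m = Nat.gcd m k := hinj h3
    rw [h4]; exact Nat.gcd_dvd_right m k
  have h2m : 2 * m ≤ k := by
    obtain ⟨c, rfl⟩ := hmd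
    have : c ≠ 0 := by rintro rfl; simp at hmk
    have : c ≠ 1 := by rintro rfl; simp at hmk
    nlinarith [show 2 ≤ c by omega]
  -- n > r^(k-m)
  have hnl : r ^ (k - m) < n := by
    by_contra hle
    push Not at hle
    have h1 : n * (r ^ m - 1) ≤ r ^ (k - m) * (r ^ m - 1) := Nat.mul_le_mul_right _ hle
    have h2 : r ^ (k - m) * (r ^ m - 1) = r ^ k - r ^ (k - m) := by
      rw [Nat.mul_sub, ← pow_add, Nat.sub_add_cancel hmk.le, mul_one]
    have h3 : 1 < r ^ (k - m) := Nat.one_lt_pow (by omega) (by omega)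
    have h4 := hmono (k - m) k (by omega)
    omega
  -- n ∣ r^g - 1
  have hg : n ∣ r ^ Nat.gcd k k' - 1 := by
    rw [← Nat.pow_sub_one_gcd_pow_sub_one]
    exact Nat.dvd_gcd ⟨r ^ m - 1, h⟩ hn
  have hgp : 0 < Nat.gcd k k' := Nat.gcd_pos_of_pos_right _ (by omega)
  have hgd : Nat.gcd k k' ∣ k := Nat.gcd_dvd_left k k'
  have hgk : Nat.gcd k k' ≤ k' := Nat.gcd_le_right k (by omega)
  have h2g : 2 * Nat.gcd k k' ≤ k := by
    obtain ⟨c, hc⟩ := hgd
    have h1 : c ≠ 0 := by rintro rfl; omega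
    have h2 : c ≠ 1 := by rintro rfl; omega
    have h3 : 2 ≤ c := by omega
    calc 2 * Nat.gcd k k' ≤ c * Nat.gcd k k' := Nat.mul_le_mul_right _ h3
      _ = k := by rw [mul_comm]; exact hc.symm
  have h5 : 1 < r ^ Nat.gcd k k' := Nat.one_lt_pow (by omega) (by omega)
  have h6 : n ≤ r ^ Nat.gcd k k' - 1 := Nat.le_of_dvd (by omega) hg
  have h7 := hmono (Nat.gcd k k') (k - m) (by omega)
  omega

theorem cyclic_of_semireg {A W : Type*} [CommGroup A] [Finite A] [CommGroup W] [Finite W]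
    [Nontrivial W] [MulDistribMulAction A W]
    (h : ∀ a : A, a ≠ 1 → ∀ w : W, a • w = w → w = 1) : IsCyclic A := by
  classical
  -- the norm argument
  have key : ∀ (r : ℕ), r.Prime → ∀ a b : A, a ^ r = 1 → b ^ r = 1 → a ≠ 1 → b ≠ 1 →
      (∀ i : ℕ, a * b ^ i ≠ 1) → False := by
    intro r hr a b ha hb ha1 hb1 hab
    haveI : Fact r.Prime := ⟨hr⟩
    -- norm of c
    have hN : ∀ c : A, c ^ r = 1 → c ≠ 1 → ∀ w : W, ∏ j ∈ Finset.range r, (c ^ j) • w = 1 := by
      intro c hc hc1 w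
      apply h c hc1
      rw [Finset.smul_prod']
      have h1 : ∏ j ∈ Finset.range r, c • (c ^ j) • w = ∏ j ∈ Finset.range r, (c ^ (j + 1)) • w := by
        refine Finset.prod_congr rfl fun j _ => ?_
        rw [smul_smul, ← pow_succ']
      rw [h1]
      have h2 := Finset.prod_range_succ (fun j => (c ^ j) • w) r
      have h3 := Finset.prod_range_succ' (fun j => (c ^ j) • w) r
      rw [h2] at h3
      simp only [hc, pow_zero] at h3
      exact (mul_right_cancel h3).symm
    have hpow : ∀ w : W, w ^ r = 1 := by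
      intro w
      have h1 : ∏ i ∈ Finset.range r, ∏ j ∈ Finset.range r, ((a * b ^ i) ^ j) • w = 1 := by
        refine Finset.prod_eq_one fun i _ => ?_
        apply hN
        · rw [mul_pow, ha, one_mul, ← pow_mul, mul_comm, pow_mul, hb, one_pow]
        · exact hab i
      rw [Finset.prod_comm] at h1
      have h2 : ∀ j ∈ Finset.range r, ∏ i ∈ Finset.range r, ((a * b ^ i) ^ j) • w =
          if j = 0 then w ^ r else 1 := by
        intro j hj
        by_cases hj0 : j = 0
        · subst hj0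
          simp
        · rw [if_neg hj0]
          have h3 : ∀ i, ((a * b ^ i) ^ j) • w = (a ^ j) • (((b ^ j) ^ i) • w) := by
            intro i
            rw [smul_smul, mul_pow, ← pow_mul, ← pow_mul, mul_comm i j]
          simp_rw [h3]
          rw [← Finset.smul_prod', hN (b ^ j), smul_one]
          · rw [← pow_mul, mul_comm, pow_mul, hb, one_pow]
          · intro hbj
            have h4 : orderOf b = r := orderOf_eq_prime hb hb1
            have h5 := orderOf_dvd_of_pow_eq_one hbj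
            rw [h4] at h5
            have h6 := Nat.le_of_dvd (Nat.pos_of_ne_zero hj0) h5
            rw [Finset.mem_range] at hj
            omega
      rw [Finset.prod_congr rfl h2, Finset.prod_ite_eq' ] at h1
      simpa [hr.pos] using h1
    -- fixed points
    obtain ⟨w, hw⟩ := exists_ne (1 : W)
    have hdvd : r ∣ Nat.card W := by
      have : orderOf w = r := orderOf_eq_prime (hpow w) hw
      rw [← this]; exact orderOf_dvd_natCard w
    have hpg : IsPGroup r (Subgroup.zpowers a) := by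
      apply IsPGroup.of_card (n := 1)
      rw [Nat.card_zpowers, orderOf_eq_prime ha ha1, pow_one]
    obtain ⟨v, hv, hne⟩ := hpg.exists_fixed_point_of_prime_dvd_card_of_fixed_point W hdvd
      (a := (1 : W)) (by
        intro g
        exact smul_one _)
    apply hne
    symm
    apply h a ha1 v
    exact hv ⟨a, Subgroup.mem_zpowers a⟩
  -- a generator
  obtain ⟨g, hg⟩ := Monoid.exists_orderOf_eq_exponent (G := A) Monoid.ExponentExists.of_finite
  rw [isCyclic_iff_exists_zpowers_eq_top]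
  refine ⟨g, ?_⟩
  by_contra hcon
  have hind : (Subgroup.zpowers g).index ≠ 1 := by
    intro h1; exact hcon (Subgroup.index_eq_one.1 h1)
  obtain ⟨r, hr, hrd⟩ := Nat.exists_prime_and_dvd hind
  haveI : Fact r.Prime := ⟨hr⟩
  rw [Subgroup.index_eq_card] at hrd
  obtain ⟨q, hq⟩ := exists_prime_orderOf_dvd_card' (G := A ⧸ Subgroup.zpowers g) r hrd
  obtain ⟨x, rfl⟩ := QuotientGroup.mk_surjective q
  have hxg : x ∉ Subgroup.zpowers g := by
    intro hx
    rw [← QuotientGroup.eq_one_iff] at hx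
    rw [hx, orderOf_one] at hq
    exact hr.one_lt.ne hq
  have hxr : x ^ r ∈ Subgroup.zpowers g := by
    rw [← QuotientGroup.eq_one_iff]
    have := pow_orderOf_eq_one (QuotientGroup.mk x : A ⧸ Subgroup.zpowers g)
    rw [hq] at this
    exact this
  obtain ⟨k, hk⟩ := Subgroup.mem_zpowers_iff.1 hxr
  set e := Monoid.exponent A with he
  have hepos : 0 < e := Monoid.ExponentExists.exponent_pos (Monoid.ExponentExists.of_finite)
  have hre : r ∣ e := by
    have h1 : orderOf (QuotientGroup.mk x : A ⧸ Subgroup.zpowers g) ∣ orderOf x :=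
      orderOf_map_dvd (QuotientGroup.mk' (Subgroup.zpowers g)) x
    rw [hq] at h1
    exact h1.trans (Monoid.order_dvd_exponent x)
  obtain ⟨f, hf⟩ := hre
  have hfpos : 0 < f := by
    rcases Nat.eq_zero_or_pos f with h0 | h0
    · rw [h0, mul_zero] at hf; omega
    · exact h0
  have hkr : (r : ℤ) ∣ k := by
    have h1 : g ^ (k * f) = 1 := by
      rw [zpow_mul, hk, zpow_natCast, ← pow_mul, ← hf]
      exact Monoid.pow_exponent_eq_one x
    have h2 : (orderOf g : ℤ) ∣ k * f := orderOf_dvd_iff_zpow_eq_one.2 h1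
    rw [hg, hf] at h2
    push_cast at h2
    exact Int.dvd_of_mul_dvd_mul_right (by exact_mod_cast hfpos.ne') h2
  obtain ⟨k', rfl⟩ := hkr
  set b := x * g ^ (-k') with hb
  have hbr : b ^ r = 1 := by
    rw [hb, mul_pow, ← hk, ← zpow_natCast (g ^ (-k')), ← zpow_mul, ← zpow_add]
    have : (r : ℤ) * k' + -k' * r = 0 := by ring
    rw [this, zpow_zero]
  have hbg : b ∉ Subgroup.zpowers g := by
    intro h1
    apply hxg
    have h2 : x = b * g ^ k' := by rw [hb, mul_assoc, ← zpow_add]; simp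
    rw [h2]
    exact mul_mem h1 (Subgroup.zpow_mem _ (Subgroup.mem_zpowers g) _)
  have hb1 : b ≠ 1 := by
    intro h1; apply hbg; rw [h1]; exact one_mem _
  set a := g ^ f with ha
  have har : a ^ r = 1 := by
    rw [ha, ← pow_mul, mul_comm, ← hf, ← hg]; exact pow_orderOf_eq_one g
  have ha1 : a ≠ 1 := by
    intro h1
    have h2 := orderOf_dvd_of_pow_eq_one h1
    rw [hg, hf] at h2
    have h3 := Nat.le_of_dvd hfpos h2
    nlinarith [hr.two_le]
  refine key r hr a b har hbr ha1 hb1 fun i hi => ?_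
  -- a = b^(-i)
  have hbi : b ^ i ∈ Subgroup.zpowers g := by
    have h1 : b ^ i = a⁻¹ := eq_inv_of_mul_eq_one_right hi
    rw [h1, ha]
    exact inv_mem (pow_mem (Subgroup.mem_zpowers g) _)
  have hri : ¬ r ∣ i := by
    rintro ⟨j, rfl⟩
    rw [pow_mul, hbr, one_pow, mul_one] at hi
    exact ha1 hi
  have hcop : Nat.Coprime i r := ((Nat.Prime.coprime_iff_not_dvd hr).2 hri).symm
  apply hbg
  obtain ⟨u, v, huv⟩ : ∃ u v : ℤ, (i : ℤ) * u + r * v = 1 := by
    have := Nat.gcd_eq_gcd_ab i r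
    rw [hcop.gcd_eq_one] at this
    exact ⟨_, _, by push_cast at this; exact this.symm⟩
  have h2 : b = (b ^ i) ^ u * (b ^ r) ^ v := by
    rw [← zpow_natCast, ← zpow_natCast, ← zpow_mul, ← zpow_mul, ← zpow_add, huv, zpow_one]
  rw [h2, hbr, one_zpow, mul_one]
  exact Subgroup.zpow_mem _ hbi _

theorem cent_of_selfcent {G : Type*} [Group G] [Finite G] {p : ℕ} (hp : p.Prime)
    (S E : Subgroup G) (hS : IsPGroup p S) (hES : E ≤ S)
    (hE : ∀ s ∈ S, (∀ e ∈ E, s * e = e * s) → s ∈ E) (y : G) (hy : ¬ p ∣ orderOf y)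
    (hyS : ∀ s ∈ S, y * s * y⁻¹ ∈ S) (hyE : ∀ e ∈ E, y * e = e * y) :
    ∀ s ∈ S, y * s = s * y := by
  classical
  haveI : Fact p.Prime := ⟨hp⟩
  set T : Subgroup G := S ⊓ Subgroup.centralizer ({y} : Set G) with hT
  have hTS : T ≤ S := inf_le_left
  have hTy : ∀ t ∈ T, y * t = t * y := fun t ht => by
    have := Subgroup.mem_centralizer_singleton_iff.1 ht.2
    exact this.symm
  have hET : E ≤ T := by
    intro e he
    refine ⟨hES he, Subgroup.mem_centralizer_singleton_iff.2 ?_⟩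
    exact (hyE e he).symm
  by_cases hTT : T = S
  · intro s hs
    rw [← hTT] at hs
    exact hTy s hs
  exfalso
  have hlt : T < S := lt_of_le_of_ne hTS hTT
  have hnil : Group.IsNilpotent S := hS.isNilpotent
  have hlt' : T.subgroupOf S < ⊤ := by
    rw [lt_top_iff_ne_top]
    intro h
    rw [Subgroup.subgroupOf_eq_top] at h
    exact absurd h (not_le_of_gt hlt)
  have h := Group.normalizerCondition_of_isNilpotent (G := S) _ hlt'
  obtain ⟨s, hs1, hs2⟩ := SetLike.exists_of_lt h
  rw [Subgroup.mem_subgroupOf] at hs2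
  have hsS : (s : G) ∈ S := s.2
  -- c = s⁻¹ * (y s y⁻¹)
  set c : G := (s : G)⁻¹ * (y * s * y⁻¹) with hc
  have hcS : c ∈ S := mul_mem (inv_mem hsS) (hyS _ hsS)
  have hst : ∀ t ∈ T, (s : G) * t * (s : G)⁻¹ ∈ T := by
    intro t ht
    have h3 := ((Subgroup.mem_normalizer_iff.1 hs1) ⟨t, hTS ht⟩).1 (Subgroup.mem_subgroupOf.2 ht)
    exact Subgroup.mem_subgroupOf.1 h3
  have hct : ∀ t ∈ T, c * t = t * c := by
    intro t ht
    have h4 := hTy t ht
    have h5 := hTy _ (hst t ht)
    have h6 : y * s * y⁻¹ * t * (y * s * y⁻¹)⁻¹ = (s : G) * t * (s : G)⁻¹ := by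
      have h7 : y⁻¹ * t * y = t := by
        rw [mul_assoc, ← h4]; group
      calc y * s * y⁻¹ * t * (y * s * y⁻¹)⁻¹ = y * (s * (y⁻¹ * t * y) * (s : G)⁻¹) * y⁻¹ := by group
        _ = y * (s * t * (s : G)⁻¹) * y⁻¹ := by rw [h7]
        _ = _ := by rw [h5]; group
    have h8 : c * t * c⁻¹ = t := by
      calc c * t * c⁻¹ = (s : G)⁻¹ * (y * s * y⁻¹ * t * (y * s * y⁻¹)⁻¹) * s := by rw [hc]; group
        _ = t := by rw [h6]; group
    exact mul_inv_eq_iff_eq_mul.1 h8
  have hcE : c ∈ E := hE c hcS (fun e he => hct e (hET he))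
  have hcy : y * c = c * y := hyE c hcE
  -- y^n s y^-n = s c^n
  have hpow : ∀ n : ℕ, y ^ n * s * (y ^ n)⁻¹ = s * c ^ n := by
    intro n
    induction n with
    | zero => simp
    | succ n ih =>
      have h9 : y * s * y⁻¹ = s * c := by rw [hc]; group
      have h10 : y * c ^ n * y⁻¹ = c ^ n := by
        have : Commute y c := hcy
        rw [(this.pow_right n).eq]; group
      calc y ^ (n + 1) * s * (y ^ (n + 1))⁻¹ = y * (y ^ n * s * (y ^ n)⁻¹) * y⁻¹ := by
            rw [pow_succ']; group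
        _ = (y * s * y⁻¹) * (y * c ^ n * y⁻¹) := by rw [ih]; group
        _ = s * c ^ (n + 1) := by rw [h9, h10, pow_succ']; group
  have h11 := hpow (orderOf y)
  rw [pow_orderOf_eq_one] at h11
  have h12 : c ^ orderOf y = 1 := by
    have : (s : G) * c ^ orderOf y = s * 1 := by rw [← h11]; simp
    exact mul_left_cancel this
  have h13 : c = 1 := by
    obtain ⟨k, hk⟩ := hS ⟨c, hcS⟩
    have hk' : c ^ p ^ k = 1 := congrArg Subtype.val hk
    have h14 : orderOf c ∣ p ^ k := orderOf_dvd_of_pow_eq_one hk'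
    have h15 : orderOf c ∣ orderOf y := orderOf_dvd_of_pow_eq_one h12
    have h16 : Nat.Coprime (p ^ k) (orderOf y) :=
      Nat.Coprime.pow_left k ((Nat.Prime.coprime_iff_not_dvd hp).2 hy)
    exact orderOf_eq_one_iff.1 (Nat.eq_one_of_dvd_coprimes h16 h14 h15)
  apply hs2
  refine ⟨hsS, Subgroup.mem_centralizer_singleton_iff.2 ?_⟩
  have h17 : y * s * y⁻¹ = s := by
    have : y * s * y⁻¹ = s * c := by rw [hc]; group
    rw [this, h13, mul_one]
  exact (mul_inv_eq_iff_eq_mul.1 h17).symm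

end Cfsg.Agent.JY.S4781A
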