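import Mathlib

/-!
# Pieces (I), (J), (K) of S4781
-/

set_option autoImplicit false
set_option linter.style.haveILetI false

namespace Cfsg.Agent.JY.S4781I

open scoped commutatorElement

theorem comm_mem {G : Type*} [Group G] {H : Subgroup G} {a b : G} (ha : a ∈ H) (hb : b ∈ H) :
    a * b * a⁻¹ * b⁻¹ ∈ ⁅H, H⁆ := Subgroup.commutator_mem_commutator ha hb

theorem comm_le {G : Type*} [Group G] (H : Subgroup G) : ⁅H, H⁆ ≤ H := by
  rw [Subgroup.commutator_le]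
  intro a ha b hb
  exact mul_mem (mul_mem (mul_mem ha hb) (inv_mem ha)) (inv_mem hb)

theorem small_comm {G : Type*} [Group G] [Finite G] {H : Subgroup G}
    (hcen : ∀ a ∈ ⁅H, H⁆, ∀ h ∈ H, a * h = h * a) (hne : ∃ x ∈ H, x ∉ ⁅H, H⁆)
    (hcard : ⁅H, H⁆.relIndex H ≤ Nat.card ↥⁅H, H⁆) :
    ∃ x ∈ H, x ∉ ⁅H, H⁆ ∧ ∃ μ : ↥⁅H, H⁆ →* ℂˣ, μ ≠ 1 ∧
      ∀ h ∈ H, ∀ hm : x * h * x⁻¹ * h⁻¹ ∈ ⁅H, H⁆, μ ⟨x * h * x⁻¹ * h⁻¹, hm⟩ = 1 := by
  classical
  obtain ⟨x, hx, hx'⟩ := hne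
  refine ⟨x, hx, hx', ?_⟩
  -- the hom
  let f : H →* ↥⁅H, H⁆ :=
    { toFun := fun h => ⟨x * h * x⁻¹ * (h : G)⁻¹, comm_mem hx h.2⟩
      map_one' := by apply Subtype.ext; simp
      map_mul' := fun a b => by
        apply Subtype.ext
        change x * ((a * b : H) : G) * x⁻¹ * ((a * b : H) : G)⁻¹ =
          (x * a * x⁻¹ * (a : G)⁻¹) * (x * b * x⁻¹ * (b : G)⁻¹)
        have h1 := hcen _ (comm_mem hx b.2) _ (inv_mem a.2)
        rw [Subgroup.coe_mul]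
        calc x * (a * b : G) * x⁻¹ * (a * b : G)⁻¹ =
            x * a * x⁻¹ * ((x * b * x⁻¹ * (b : G)⁻¹) * (a : G)⁻¹) := by group
          _ = x * a * x⁻¹ * ((a : G)⁻¹ * (x * b * x⁻¹ * (b : G)⁻¹)) := by rw [h1]
          _ = _ := by group }
  have hker : ⁅H, H⁆.subgroupOf H < f.ker := by
    rw [lt_iff_le_and_ne]
    constructor
    · intro a ha
      rw [Subgroup.mem_subgroupOf] at ha
      rw [MonoidHom.mem_ker]
      apply Subtype.ext
      change x * (a : G) * x⁻¹ * (a : G)⁻¹ = 1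
      have h1 := hcen _ ha x hx
      rw [← h1]; group
    · intro h
      have h1 : (⟨x, hx⟩ : H) ∈ f.ker := by
        rw [MonoidHom.mem_ker]
        apply Subtype.ext
        change x * x * x⁻¹ * x⁻¹ = 1
        group
      rw [← h, Subgroup.mem_subgroupOf] at h1
      exact hx' h1
  have hidx : Nat.card f.range < Nat.card ↥⁅H, H⁆ := by
    have h1 : f.ker.index = Nat.card f.range := Subgroup.index_ker f
    rw [← h1]
    refine lt_of_lt_of_le ?_ hcard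
    have h2 := Subgroup.relIndex_mul_index hker.le
    have h3 : (⁅H, H⁆.subgroupOf H).relIndex f.ker ≠ 1 := by
      rw [Ne, Subgroup.relIndex_eq_one]
      exact fun h => absurd h (not_le_of_gt hker)
    have h4 : (⁅H, H⁆.subgroupOf H).relIndex f.ker ≠ 0 := Subgroup.FiniteIndex.index_ne_zero
    have h5 : 0 < f.ker.index := Nat.pos_of_ne_zero Subgroup.FiniteIndex.index_ne_zero
    change f.ker.index < (⁅H, H⁆.subgroupOf H).index
    rw [← h2]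
    have h6 : 2 ≤ (⁅H, H⁆.subgroupOf H).relIndex f.ker := by omega
    nlinarith
  letI : CommGroup ↥⁅H, H⁆ :=
    { (inferInstance : Group ↥⁅H, H⁆) with
      mul_comm := fun a b => Subtype.ext (hcen _ a.2 _ (comm_le H b.2)) }
  obtain ⟨y, hy⟩ : ∃ y : ↥⁅H, H⁆, y ∉ f.range := by
    by_contra hcon
    push Not at hcon
    have h1 : f.range = ⊤ := by rw [eq_top_iff]; exact fun y _ => hcon y
    rw [h1, Subgroup.card_top] at hidx
    exact lt_irrefl _ hidx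
  have h7 := (CommGroup.forall_monoidHom_apply_eq_one_iff ℂ f.range y).not.2 hy
  push Not at h7
  obtain ⟨φ, hφ1, hφ2⟩ := h7
  refine ⟨φ, ?_, ?_⟩
  · rintro rfl
    exact hφ2 rfl
  · intro h hh hm
    exact hφ1 _ ⟨⟨h, hh⟩, rfl⟩

theorem rgroup {G : Type*} [Group G] [Finite G] {H : Subgroup G}
    (hcen : ∀ a ∈ ⁅H, H⁆, ∀ h ∈ H, a * h = h * a) {r k : ℕ} (hr : r.Prime)
    (hV : ⁅H, H⁆.relIndex H = r ^ k) : IsPGroup r ↥⁅H, H⁆ := by
  have hn : (⁅H, H⁆.subgroupOf H).Normal := by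
    constructor
    intro n hn g
    rw [Subgroup.mem_subgroupOf] at hn ⊢
    have h1 := hcen _ hn g g.2
    have h2 : ((g * n * g⁻¹ : H) : G) = n := by
      push_cast
      rw [← h1]; group
    rw [h2]; exact hn
  -- x ^ r^k ∈ H'
  have hpow : ∀ x ∈ H, x ^ (r ^ k) ∈ ⁅H, H⁆ := by
    intro x hx
    have h1 := Subgroup.pow_index_mem (⁅H, H⁆.subgroupOf H) (⟨x, hx⟩ : H)
    rw [Subgroup.mem_subgroupOf] at h1
    have h2 : (⁅H, H⁆.subgroupOf H).index = r ^ k := hV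
    rw [h2] at h1
    exact h1
  have hcp : ∀ x ∈ H, ∀ y ∈ H, ∀ n : ℕ, (x * y * x⁻¹ * y⁻¹) ^ n = x ^ n * y * (x ^ n)⁻¹ * y⁻¹ := by
    intro x hx y hy n
    induction n with
    | zero => simp
    | succ n ih =>
      have h1 := hcen _ (comm_mem hx hy) _ (inv_mem hx |> fun h => (Subgroup.pow_mem H hx n))
      -- [x^(n+1), y] = x^n [x,y] x^-n [x^n,y]
      have h2 : x ^ (n + 1) * y * (x ^ (n + 1))⁻¹ * y⁻¹ =
          x ^ n * (x * y * x⁻¹ * y⁻¹) * (y * (x ^ n)⁻¹ * y⁻¹) := by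
        rw [pow_succ]; group
      rw [h2, ← h1, pow_succ', ih]
      group
  rintro ⟨a, ha⟩
  refine ⟨k, Subtype.ext ?_⟩
  change a ^ r ^ k = 1
  rw [Subgroup.commutator_def] at ha
  refine Subgroup.closure_induction (p := fun z _ => z ^ r ^ k = 1) ?_ ?_ ?_ ?_ ha
  · rintro z ⟨x, hx, y, hy, rfl⟩
    change (x * y * x⁻¹ * y⁻¹) ^ r ^ k = 1
    rw [hcp x hx y hy]
    have h1 := hcen _ (hpow x hx) y hy
    rw [h1]; group
  · simp
  · intro x y hx hy h1 h2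
    have hx' : x ∈ ⁅H, H⁆ := by rw [Subgroup.commutator_def]; exact hx
    have hy' : y ∈ ⁅H, H⁆ := by rw [Subgroup.commutator_def]; exact hy
    have h3 : Commute x y := hcen x hx' y (comm_le H hy')
    rw [h3.mul_pow, h1, h2, one_mul]
  · intro x hx h1
    rw [inv_pow, h1, inv_one]

theorem two_ext {G : Type*} [Group G] [Finite G] {Z M : Subgroup G} (hMZ : M ≤ Z)
    (hZZ : ⁅Z, Z⁆ ≤ M) (hlt : ∃ z ∈ Z, z ∉ M) (hM : ∀ m ∈ M, ∀ z ∈ Z, z * m = m * z)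
    (μ : M →* ℂˣ)
    (h : ∀ a ∈ Z, ∀ b ∈ Z, ∀ hm : a * b * a⁻¹ * b⁻¹ ∈ M, μ ⟨a * b * a⁻¹ * b⁻¹, hm⟩ = 1) :
    ∃ ν₁ ν₂ : Z →* ℂˣ, ν₁ ≠ ν₂ ∧ (∀ m : M, ν₁ ⟨m, hMZ m.2⟩ = μ m) ∧
      ∀ m : M, ν₂ ⟨m, hMZ m.2⟩ = μ m := by
  classical
  set N : Subgroup Z := μ.ker.map (Subgroup.inclusion hMZ) with hN
  have memN : ∀ z : Z, z ∈ N ↔ ∃ hm : (z : G) ∈ M, μ ⟨z, hm⟩ = 1 := by
    intro z
    constructor
    · rintro ⟨m, hm, rfl⟩
      exact ⟨m.2, hm⟩
    · rintro ⟨hm, h1⟩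
      exact ⟨⟨z, hm⟩, h1, rfl⟩
  have hNn : N.Normal := by
    constructor
    intro n hn g
    have h1 : g * n * g⁻¹ = n := by
      obtain ⟨hm, -⟩ := (memN n).1 hn
      apply Subtype.ext
      push_cast
      rw [hM _ hm g g.2]; group
    rw [h1]; exact hn
  letI : CommGroup (Z ⧸ N) :=
    { (inferInstance : Group (Z ⧸ N)) with
      mul_comm := fun a b => by
        obtain ⟨a, rfl⟩ := QuotientGroup.mk_surjective a
        obtain ⟨b, rfl⟩ := QuotientGroup.mk_surjective b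
        change (QuotientGroup.mk (a * b) : Z ⧸ N) = QuotientGroup.mk (b * a)
        rw [QuotientGroup.eq, memN]
        have h1 : (((a * b)⁻¹ * (b * a) : Z) : G) =
            (b : G)⁻¹ * (a : G)⁻¹ * ((b : G)⁻¹)⁻¹ * ((a : G)⁻¹)⁻¹ := by
          push_cast; group
        have h2 : (b : G)⁻¹ * (a : G)⁻¹ * ((b : G)⁻¹)⁻¹ * ((a : G)⁻¹)⁻¹ ∈ M :=
          hZZ (comm_mem (inv_mem b.2) (inv_mem a.2))
        refine ⟨by rw [h1]; exact h2, ?_⟩
        have h3 := h _ (inv_mem b.2) _ (inv_mem a.2) h2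
        rw [← h3]
        congr 1
        exact Subtype.ext h1 }
  -- the map from M
  let q : Z →* Z ⧸ N := QuotientGroup.mk' N
  let g : M →* Z ⧸ N := q.comp (Subgroup.inclusion hMZ)
  let M' : Subgroup (Z ⧸ N) := g.range
  let f : M →* M' := g.rangeRestrict
  have hfs : Function.Surjective f := g.rangeRestrict_surjective
  have hfk : f.ker ≤ μ.ker := by
    intro m hm
    rw [MonoidHom.mem_ker] at hm ⊢
    have h1 : g m = 1 := congrArg Subtype.val hm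
    have h2 : (QuotientGroup.mk (Subgroup.inclusion hMZ m) : Z ⧸ N) = 1 := h1
    rw [QuotientGroup.eq_one_iff, memN] at h2
    obtain ⟨h3, h4⟩ := h2
    exact h4
  let μ' : M' →* ℂˣ := f.liftOfSurjective hfs ⟨μ, hfk⟩
  have hμ' : ∀ m, μ' (f m) = μ m := fun m =>
    f.liftOfRightInverse_comp_apply _ (Function.rightInverse_surjInv hfs) ⟨μ, hfk⟩ m
  obtain ⟨ν', hν'⟩ := MonoidHom.domRestrict_surjective ℂ M' μ'
  have hν1 : ∀ m : M, ν' (g m) = μ m := by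
    intro m
    rw [← hμ' m, ← hν']
    rfl
  obtain ⟨z, hz, hzM⟩ := hlt
  have hzM' : q ⟨z, hz⟩ ∉ M' := by
    rintro ⟨m, hm⟩
    have h1 : (QuotientGroup.mk (Subgroup.inclusion hMZ m) : Z ⧸ N) = QuotientGroup.mk ⟨z, hz⟩ := hm
    rw [QuotientGroup.eq, memN] at h1
    obtain ⟨h2, -⟩ := h1
    apply hzM
    have h3 : z = (m : G) * (((Subgroup.inclusion hMZ m)⁻¹ * ⟨z, hz⟩ : Z) : G) := by
      push_cast; simp
    rw [h3]
    exact mul_mem m.2 h2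
  have h7 := (CommGroup.forall_monoidHom_apply_eq_one_iff ℂ M' (q ⟨z, hz⟩)).not.2 hzM'
  push Not at h7
  obtain ⟨φ, hφ1, hφ2⟩ := h7
  refine ⟨ν'.comp q, (ν' * φ).comp q, ?_, ?_, ?_⟩
  · intro heq
    apply hφ2
    have h8 := congrArg (fun t : Z →* ℂˣ => t ⟨z, hz⟩) heq
    have h9 : ν' (q ⟨z, hz⟩) = ν' (q ⟨z, hz⟩) * φ (q ⟨z, hz⟩) := h8
    exact (mul_eq_left.1 h9.symm)
  · intro m
    exact hν1 m
  · intro m
    have h8 : φ (g m) = 1 := hφ1 _ ⟨m, rfl⟩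
    change ν' (g m) * φ (g m) = μ m
    rw [h8, mul_one]
    exact hν1 m

end Cfsg.Agent.JY.S4781I
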