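import Mathlib

/-! Two-transitive groups in which the nonidentity elements of the centralizer of an involution have equally many
fixed points: counting. -/

set_option autoImplicit false
set_option linter.unusedSectionVars false
set_option linter.style.haveILetI false

namespace Cfsg.Agent.JY.TT

open MulAction

universe u v

/-- the hypothesis -/
structure Hyp (Ω : Type v) (G : Type u) [Group G] [MulAction G Ω] (i : ℕ) (t : G) : Prop where
  tr : ∀ {a b c d : Ω}, a ≠ b → c ≠ d → ∃ g : G, g • a = c ∧ g • b = d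
  faith : ∀ g : G, (∀ x : Ω, g • x = x) → g = 1
  tt : t * t = 1
  t1 : t ≠ 1
  fix : ∀ g : G, g * t = t * g → g ≠ 1 → Nat.card {x : Ω // g • x = x} = i

section

variable {G : Type u} {Ω : Type v} [Group G] [MulAction G Ω] [Finite G] [Finite Ω] {i : ℕ} {t : G}

/-- two-point stabilizers -/
def DD (G : Type u) {Ω : Type v} [Group G] [MulAction G Ω] (a b : Ω) : Subgroup G := stabilizer G a ⊓ stabilizer G b

theorem mem_DD {a b : Ω} {g : G} : g ∈ DD G a b ↔ g • a = a ∧ g • b = b := Iff.rfl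

/-- the centralizer of the involution -/
def KK (t : G) : Subgroup G := Subgroup.centralizer ({t} : Set G)

theorem mem_KK {g : G} : g ∈ KK t ↔ g * t = t * g := by
  rw [KK, Subgroup.mem_centralizer_singleton_iff]

variable (h : Hyp Ω G i t)

include h

theorem Hyp.card_X1 {a b : Ω} (hab : a ≠ b) : Nat.card {g : G // t • (g⁻¹ • a) = g⁻¹ • b} =
    Nat.card {x : Ω // t • x ≠ x} * Nat.card (DD G a b) := by
  have hc : ∀ x : {x : Ω // t • x ≠ x}, ∃ s : G, s • (x : Ω) = a ∧ s • (t • (x : Ω)) = b := fun x => h.tr x.2.symm hab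
  choose s hs1 hs2 using hc
  rw [← Nat.card_prod]
  symm
  refine Nat.card_congr (Equiv.ofBijective
    (fun p : {x : Ω // t • x ≠ x} × DD G a b => (⟨(p.2 : G) * s p.1, ?_⟩ : {g : G // t • (g⁻¹ • a) = g⁻¹ • b})) ⟨?_, ?_⟩)
  · obtain ⟨x, ⟨d, hd⟩⟩ := p
    obtain ⟨hd1, hd2⟩ := mem_DD.1 hd
    change t • ((d * s x)⁻¹ • a) = (d * s x)⁻¹ • b
    rw [mul_inv_rev, mul_smul, mul_smul, inv_smul_eq_iff.2 hd1.symm, inv_smul_eq_iff.2 hd2.symm,
      inv_smul_eq_iff.2 (hs1 x).symm, inv_smul_eq_iff.2 (hs2 x).symm]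
  · rintro ⟨x, ⟨d, hd⟩⟩ ⟨y, ⟨e, he⟩⟩ hxy
    have h1 : d * s x = e * s y := congrArg Subtype.val hxy
    obtain ⟨hd1, hd2⟩ := mem_DD.1 hd
    obtain ⟨he1, he2⟩ := mem_DD.1 he
    have h2 : (x : Ω) = y := by
      have e1 : (d * s x)⁻¹ • a = x := by
        rw [mul_inv_rev, mul_smul, inv_smul_eq_iff.2 hd1.symm, inv_smul_eq_iff.2 (hs1 x).symm]
      have e2 : (e * s y)⁻¹ • a = y := by
        rw [mul_inv_rev, mul_smul, inv_smul_eq_iff.2 he1.symm, inv_smul_eq_iff.2 (hs1 y).symm]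
      rw [← e1, h1, e2]
    have h3 : x = y := Subtype.ext h2
    subst h3
    have h4 : d = e := mul_right_cancel h1
    subst h4
    rfl
  · rintro ⟨g, hg⟩
    have hne : t • (g⁻¹ • a) ≠ g⁻¹ • a := by
      rw [hg]
      intro hc
      exact hab (smul_left_cancel _ hc).symm
    refine ⟨⟨⟨g⁻¹ • a, hne⟩, ⟨g * (s ⟨g⁻¹ • a, hne⟩)⁻¹, ?_⟩⟩, ?_⟩
    · rw [mem_DD, mul_smul, mul_smul, inv_smul_eq_iff.2 (hs1 ⟨g⁻¹ • a, hne⟩).symm,
        inv_smul_eq_iff.2 (hs2 ⟨g⁻¹ • a, hne⟩).symm]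
      refine ⟨smul_inv_smul g a, ?_⟩
      change g • t • g⁻¹ • a = b
      rw [hg, smul_inv_smul]
    · apply Subtype.ext
      change g * (s ⟨g⁻¹ • a, hne⟩)⁻¹ * s ⟨g⁻¹ • a, hne⟩ = g
      group

theorem Hyp.card_X2 {a b : Ω} : Nat.card {g : G // t • (g⁻¹ • a) = g⁻¹ • b} =
    Nat.card {w : G // (w • a = b ∧ w • b = a) ∧ ∃ g, g * t * g⁻¹ = w} * Nat.card (KK t) := by
  have hc : ∀ w : {w : G // (w • a = b ∧ w • b = a) ∧ ∃ g, g * t * g⁻¹ = w}, ∃ g, g * t * g⁻¹ = (w : G) := fun w => w.2.2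
  choose c hc using hc
  rw [← Nat.card_prod]
  symm
  refine Nat.card_congr (Equiv.ofBijective
    (fun p : {w : G // (w • a = b ∧ w • b = a) ∧ ∃ g, g * t * g⁻¹ = w} × KK t =>
      (⟨c p.1 * (p.2 : G), ?_⟩ : {g : G // t • (g⁻¹ • a) = g⁻¹ • b})) ⟨?_, ?_⟩)
  · obtain ⟨w, ⟨k, hk⟩⟩ := p
    have hk' := mem_KK.1 hk
    change t • ((c w * k)⁻¹ • a) = (c w * k)⁻¹ • b
    have e1 : t * (c w * k)⁻¹ = (c w * k)⁻¹ * w := by
      rw [← hc w]
      have : t * k⁻¹ = k⁻¹ * t := by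
        rw [eq_inv_mul_iff_mul_eq, ← mul_assoc, hk']; group
      calc t * (c w * k)⁻¹ = t * k⁻¹ * (c w)⁻¹ := by group
        _ = k⁻¹ * t * (c w)⁻¹ := by rw [this]
        _ = _ := by group
    rw [← mul_smul, e1, mul_smul, w.2.1.1]
  · rintro ⟨w, ⟨k, hk⟩⟩ ⟨w', ⟨k', hk'⟩⟩ hxy
    have h1 : c w * k = c w' * k' := congrArg Subtype.val hxy
    have hk1 := mem_KK.1 hk
    have hk2 := mem_KK.1 hk'
    have e1 : ∀ (w : {w : G // (w • a = b ∧ w • b = a) ∧ ∃ g, g * t * g⁻¹ = w}) (k : G), k * t = t * k →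
        (c w * k) * t * (c w * k)⁻¹ = w := by
      intro w k hk
      rw [← hc w]
      calc (c w * k) * t * (c w * k)⁻¹ = c w * (k * t) * k⁻¹ * (c w)⁻¹ := by group
        _ = c w * (t * k) * k⁻¹ * (c w)⁻¹ := by rw [hk]
        _ = _ := by group
    have h2 : (w : G) = w' := by rw [← e1 w k hk1, h1, e1 w' k' hk2]
    have h3 : w = w' := Subtype.ext h2
    subst h3
    have h4 : k = k' := mul_left_cancel h1
    subst h4
    rfl
  · rintro ⟨g, hg⟩
    have hw : ((g * t * g⁻¹) • a = b ∧ (g * t * g⁻¹) • b = a) ∧ ∃ g', g' * t * g'⁻¹ = g * t * g⁻¹ := by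
      refine ⟨⟨?_, ?_⟩, g, rfl⟩
      · rw [mul_smul, mul_smul, hg, smul_inv_smul]
      · rw [mul_smul, mul_smul, ← hg, ← mul_smul t t, h.tt, one_smul, smul_inv_smul]
    have hcw := hc ⟨_, hw⟩
    refine ⟨⟨⟨_, hw⟩, ⟨(c ⟨_, hw⟩)⁻¹ * g, ?_⟩⟩, ?_⟩
    · rw [mem_KK]
      have h1 : c ⟨_, hw⟩ * t * (c ⟨_, hw⟩)⁻¹ = g * t * g⁻¹ := hcw
      calc (c ⟨_, hw⟩)⁻¹ * g * t = (c ⟨_, hw⟩)⁻¹ * (g * t * g⁻¹) * g := by group
        _ = (c ⟨_, hw⟩)⁻¹ * (c ⟨_, hw⟩ * t * (c ⟨_, hw⟩)⁻¹) * g := by rw [h1]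
        _ = t * ((c ⟨_, hw⟩)⁻¹ * g) := by group
    · apply Subtype.ext
      change c ⟨_, hw⟩ * ((c ⟨_, hw⟩)⁻¹ * g) = g
      group

omit h in
theorem card_W_le {a b : Ω} : Nat.card {w : G // w • a = b ∧ w • b = a} ≤ Nat.card (DD G a b) := by
  by_cases hne : Nonempty {w : G // w • a = b ∧ w • b = a}
  · obtain ⟨⟨w0, h1, h2⟩⟩ := hne
    apply Nat.card_le_card_of_injective
      (fun w : {w : G // w • a = b ∧ w • b = a} => (⟨w0⁻¹ * w, by
        rw [mem_DD, mul_smul, mul_smul, w.2.1, w.2.2, inv_smul_eq_iff, inv_smul_eq_iff]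
        exact ⟨h1.symm, h2.symm⟩⟩ : DD G a b))
    intro w w' hw
    exact Subtype.ext (mul_left_cancel (congrArg Subtype.val hw))
  · rw [not_nonempty_iff] at hne
    rw [Nat.card_of_isEmpty]
    exact Nat.zero_le _

theorem Hyp.burnside : ∃ m : ℕ, m * Nat.card (KK t) + i = Nat.card (KK t) * i + Nat.card Ω := by
  classical
  letI : Fintype Ω := Fintype.ofFinite Ω
  letI : Fintype (KK t) := Fintype.ofFinite _
  letI : Fintype (orbitRel.Quotient (KK t) Ω) := Fintype.ofFinite _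
  have hb := sum_card_fixedBy_eq_card_orbits_mul_card_group (KK t) Ω
  refine ⟨Fintype.card (orbitRel.Quotient (KK t) Ω), ?_⟩
  rw [Nat.card_eq_fintype_card (α := KK t), Nat.card_eq_fintype_card (α := Ω), ← hb]
  have e1 : ∀ k : KK t, Fintype.card (fixedBy Ω k) + (if k = 1 then i else 0) = i + (if k = 1 then Fintype.card Ω else 0) := by
    intro k
    by_cases hk : k = 1
    · subst hk
      rw [if_pos rfl, if_pos rfl, add_comm]
      congr 1
      rw [← Nat.card_eq_fintype_card, ← Nat.card_eq_fintype_card]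
      apply Nat.card_congr
      exact ⟨fun x => x.1, fun x => ⟨x, one_smul _ x⟩, fun x => rfl, fun x => rfl⟩
    · rw [if_neg hk, if_neg hk, add_zero, add_zero, ← h.fix k (mem_KK.1 k.2) (fun e => hk (Subtype.ext e)),
        ← Nat.card_eq_fintype_card]
      rfl
  have e2 := Finset.sum_congr (rfl : (Finset.univ : Finset (KK t)) = Finset.univ) (fun k _ => e1 k)
  rw [Finset.sum_add_distrib, Finset.sum_add_distrib, Finset.sum_ite_eq' , Finset.sum_ite_eq', Finset.sum_const,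
    smul_eq_mul] at e2
  simpa using e2

theorem Hyp.card_fix : Nat.card {x : Ω // t • x = x} = i := h.fix t rfl h.t1

theorem Hyp.card_move : Nat.card {x : Ω // t • x ≠ x} + i = Nat.card Ω := by
  classical
  rw [← h.card_fix, add_comm, ← Nat.card_sum]
  exact Nat.card_congr (Equiv.sumCompl (fun x : Ω => t • x = x))

theorem Hyp.exists_move : ∃ a : Ω, t • a ≠ a := by
  by_contra hcon
  push Not at hcon
  exact h.t1 (h.faith t hcon)

theorem Hyp.main {a b : Ω} (hab : a ≠ b) : Nat.card (KK t) + i = Nat.card Ω ∧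
    ∀ w : G, w • a = b → w • b = a → ∃ g, g * t * g⁻¹ = w := by
  classical
  have h1 := h.card_X1 hab
  rw [h.card_X2] at h1
  have h2 := h.card_move
  obtain ⟨m, hm⟩ := h.burnside
  obtain ⟨x, hx⟩ := h.exists_move
  have hpos : 0 < Nat.card {x : Ω // t • x ≠ x} := by
    haveI : Nonempty {x : Ω // t • x ≠ x} := ⟨⟨x, hx⟩⟩
    exact Nat.card_pos
  have hdvd : Nat.card (KK t) ∣ Nat.card {x : Ω // t • x ≠ x} := by
    have e : m * Nat.card (KK t) = Nat.card (KK t) * i + Nat.card {x : Ω // t • x ≠ x} := by omega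
    exact (Nat.dvd_add_right (Dvd.intro i rfl)).1 (e ▸ Dvd.intro_left m rfl)
  have hle := Nat.le_of_dvd hpos hdvd
  have hDpos : 0 < Nat.card (DD G a b) := Nat.card_pos
  have hKpos : 0 < Nat.card (KK t) := Nat.card_pos
  have hinj : Nat.card {w : G // (w • a = b ∧ w • b = a) ∧ ∃ g, g * t * g⁻¹ = w} ≤
      Nat.card {w : G // w • a = b ∧ w • b = a} :=
    Nat.card_le_card_of_injective (fun w => ⟨w.1, w.2.1⟩) (by
      intro w w' hw
      exact Subtype.ext (congrArg (fun z : {w : G // w • a = b ∧ w • b = a} => (z : G)) hw))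
  have hW := card_W_le (G := G) (a := a) (b := b)
  have e3 : Nat.card {x : Ω // t • x ≠ x} = Nat.card (KK t) := by
    apply le_antisymm _ hle
    have : Nat.card {x : Ω // t • x ≠ x} * Nat.card (DD G a b) ≤ Nat.card (KK t) * Nat.card (DD G a b) := by
      rw [← h1, mul_comm (Nat.card (KK t))]
      exact Nat.mul_le_mul_right _ (hinj.trans hW)
    exact Nat.le_of_mul_le_mul_right this hDpos
  refine ⟨by omega, ?_⟩
  have e4 : Nat.card {w : G // (w • a = b ∧ w • b = a) ∧ ∃ g, g * t * g⁻¹ = w} = Nat.card (DD G a b) := by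
    rw [e3, mul_comm] at h1
    exact Nat.eq_of_mul_eq_mul_left hKpos h1
  intro w hw1 hw2
  -- the injection is surjective
  have hbij : Function.Bijective (fun w : {w : G // (w • a = b ∧ w • b = a) ∧ ∃ g, g * t * g⁻¹ = w} =>
      (⟨w.1, w.2.1⟩ : {w : G // w • a = b ∧ w • b = a})) := by
    rw [Nat.bijective_iff_injective_and_card]
    refine ⟨?_, le_antisymm hinj (by rw [e4]; exact hW)⟩
    intro w w' hw
    exact Subtype.ext (congrArg (fun z : {w : G // w • a = b ∧ w • b = a} => (z : G)) hw)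
  obtain ⟨⟨w', hw'⟩, hw''⟩ := hbij.2 ⟨w, hw1, hw2⟩
  have e5 : w' = w := congrArg Subtype.val hw''
  rw [← e5]
  exact hw'.2

theorem Hyp.card_K : Nat.card (KK t) + i = Nat.card Ω := by
  obtain ⟨a, ha⟩ := h.exists_move
  exact (h.main ha).1

theorem Hyp.swap_conj {a b : Ω} (hab : a ≠ b) {w : G} (h1 : w • a = b) (h2 : w • b = a) : ∃ g, g * t * g⁻¹ = w :=
  (h.main hab).2 w h1 h2

theorem Hyp.swap_inv {a b : Ω} (hab : a ≠ b) {w : G} (h1 : w • a = b) (h2 : w • b = a) : w * w = 1 := by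
  obtain ⟨g, rfl⟩ := h.swap_conj hab h1 h2
  calc g * t * g⁻¹ * (g * t * g⁻¹) = g * (t * t) * g⁻¹ := by group
    _ = 1 := by rw [h.tt]; group

theorem Hyp.inverts {a b : Ω} (hab : a ≠ b) {w : G} (h1 : w • a = b) (h2 : w • b = a) {x : G} (hx : x ∈ DD G a b) :
    w * x * w⁻¹ = x⁻¹ := by
  obtain ⟨hx1, hx2⟩ := mem_DD.1 hx
  have e1 : (w * x) * (w * x) = 1 := h.swap_inv hab (by rw [mul_smul, hx1, h1]) (by rw [mul_smul, hx2, h2])
  have e2 : w⁻¹ = w := inv_eq_of_mul_eq_one_right (h.swap_inv hab h1 h2)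
  rw [e2, eq_inv_iff_mul_eq_one, ← e1]
  group

theorem Hyp.exists_swap {a b : Ω} (hab : a ≠ b) : ∃ w : G, w • a = b ∧ w • b = a := h.tr hab hab.symm

theorem Hyp.DD_comm {a b : Ω} (hab : a ≠ b) {x y : G} (hx : x ∈ DD G a b) (hy : y ∈ DD G a b) : x * y = y * x := by
  obtain ⟨w, h1, h2⟩ := h.exists_swap hab
  have e1 := h.inverts hab h1 h2 hx
  have e2 := h.inverts hab h1 h2 hy
  have e3 := h.inverts hab h1 h2 ((DD G a b).mul_mem hx hy)
  have e4 : (x * y)⁻¹ = x⁻¹ * y⁻¹ := by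
    rw [← e3, ← e1, ← e2]; group
  have e5 := congrArg (fun z => z⁻¹) e4
  simpa using e5

theorem Hyp.conj_inv {s : G} (h1 : s * s = 1) (h2 : s ≠ 1) : ∃ g, g * t * g⁻¹ = s := by
  have : ∃ a : Ω, s • a ≠ a := by
    by_contra hcon
    push Not at hcon
    exact h2 (h.faith s hcon)
  obtain ⟨a, ha⟩ := this
  exact h.swap_conj ha.symm rfl (by rw [← mul_smul, h1, one_smul])

/-- every involution satisfies the hypothesis -/
theorem Hyp.of_inv {s : G} (h1 : s * s = 1) (h2 : s ≠ 1) : Hyp Ω G i s := by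
  obtain ⟨g, rfl⟩ := h.conj_inv h1 h2
  refine ⟨h.tr, h.faith, h1, h2, ?_⟩
  intro x hx hx1
  rw [← h.fix (g⁻¹ * x * g) (by
    calc g⁻¹ * x * g * t = g⁻¹ * (x * (g * t * g⁻¹)) * g := by group
      _ = g⁻¹ * ((g * t * g⁻¹) * x) * g := by rw [hx]
      _ = _ := by group) (by
    intro e
    apply hx1
    calc x = g * (g⁻¹ * x * g) * g⁻¹ := by group
      _ = 1 := by rw [e]; group)]
  refine Nat.card_congr ⟨fun y => ⟨g⁻¹ • (y : Ω), ?_⟩, fun y => ⟨g • (y : Ω), ?_⟩, ?_, ?_⟩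
  · rw [mul_smul, mul_smul, smul_inv_smul, y.2]
  · have := y.2
    rw [mul_smul, mul_smul, inv_smul_eq_iff] at this
    exact this
  · intro y; apply Subtype.ext; exact smul_inv_smul g _
  · intro y; apply Subtype.ext; exact inv_smul_smul g _

/-- conjugate two-point stabilizers -/
theorem Hyp.card_DD {a b c d : Ω} (hab : a ≠ b) (hcd : c ≠ d) : Nat.card (DD G a b) = Nat.card (DD G c d) := by
  obtain ⟨g, hg1, hg2⟩ := h.tr hab hcd
  refine Nat.card_congr ⟨fun x => ⟨g * x * g⁻¹, ?_⟩, fun x => ⟨g⁻¹ * x * g, ?_⟩, ?_, ?_⟩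
  · obtain ⟨h1, h2⟩ := mem_DD.1 x.2
    rw [mem_DD, ← hg1, ← hg2, mul_smul, mul_smul, inv_smul_smul, h1, mul_smul, mul_smul, inv_smul_smul, h2]
    exact ⟨rfl, rfl⟩
  · obtain ⟨h1, h2⟩ := mem_DD.1 x.2
    rw [mem_DD, mul_smul, mul_smul, hg1, h1, mul_smul, mul_smul, hg2, h2, ← hg1, ← hg2, inv_smul_smul, inv_smul_smul]
    exact ⟨rfl, rfl⟩
  · intro x; apply Subtype.ext; change g⁻¹ * (g * x * g⁻¹) * g = x; group
  · intro x; apply Subtype.ext; change g * (g⁻¹ * x * g) * g⁻¹ = x; group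

theorem Hyp.DD_eq_of_le {a b c d : Ω} (hab : a ≠ b) (hcd : c ≠ d) (hle : DD G a b ≤ DD G c d) : DD G a b = DD G c d := by
  apply SetLike.coe_injective
  apply Set.eq_of_subset_of_ncard_le hle
  rw [← Nat.card_coe_set_eq, ← Nat.card_coe_set_eq]
  exact (h.card_DD hab hcd).ge

end

end Cfsg.Agent.JY.TT
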