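import Mathlib
import Cfsg.Agent.JY.TTA

/-! The case of at least two fixed points. -/

set_option autoImplicit false
set_option linter.unusedSectionVars false
set_option linter.style.haveILetI false

namespace Cfsg.Agent.JY.TT

open MulAction

universe u v

section

variable {G : Type u} {Ω : Type v} [Group G] [MulAction G Ω] [Finite G] [Finite Ω] {i : ℕ} {t : G}

variable (h : Hyp Ω G i t)

include h

theorem Hyp.DD_le_K {x y : Ω} (hxy : x ≠ y) (hx : t • x = x) (hy : t • y = y) : DD G x y ≤ KK t := by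
  intro g hg
  rw [mem_KK]
  exact h.DD_comm hxy hg (mem_DD.2 ⟨hx, hy⟩)

omit h in
theorem smul_fix {g : G} (hg : g ∈ KK t) {x : Ω} (hx : t • x = x) : t • (g • x) = g • x := by
  rw [← mul_smul, ← mem_KK.1 hg, mul_smul, hx]

omit h in
theorem smul_pow_fix {T : G} {y : Ω} (hy : T • y = y) (k : ℕ) : (T ^ k) • y = y := by
  induction k with
  | zero => rw [pow_zero, one_smul]
  | succ k ih => rw [pow_succ, mul_smul, hy, ih]

theorem Hyp.odd_fix {g : G} (hg : g ∈ KK t) (hodd : Odd (orderOf g)) {x : Ω} (hx : t • x = x) : g • x = x := by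
  by_cases hg1 : g = 1
  · rw [hg1, one_smul]
  have hc := mem_KK.1 hg
  set T := t * g with hT
  have hTt : T * t = t * T := by rw [hT, mul_assoc, hc, ← mul_assoc]
  have hpow : T ^ orderOf g = t := by
    have : Commute t g := hc.symm
    rw [hT, this.mul_pow, pow_orderOf_eq_one, mul_one]
    obtain ⟨k, hk⟩ := hodd
    rw [hk, pow_succ, pow_mul, pow_two, h.tt, one_pow, one_mul]
  have hT1 : T ≠ 1 := by
    intro e
    rw [e, one_pow] at hpow
    exact h.t1 hpow.symm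
  have hcard := h.fix T hTt hT1
  have hmem : ∀ y : Ω, T • y = y → t • y = y := by
    intro y hy
    rw [← hpow]
    exact smul_pow_fix hy _
  let f : {y : Ω // T • y = y} → {y : Ω // t • y = y} := fun y => ⟨y, hmem y y.2⟩
  have hf : Function.Injective f := by
    intro y z e
    exact Subtype.ext (congrArg (fun w : {y : Ω // t • y = y} => (w : Ω)) e)
  have hb : Function.Bijective f := by
    rw [Nat.bijective_iff_injective_and_card]
    exact ⟨hf, by rw [hcard, h.card_fix]⟩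
  obtain ⟨y, hy⟩ := hb.2 ⟨x, hx⟩
  have e1 : (y : Ω) = x := congrArg Subtype.val hy
  have e2 := y.2
  rw [e1, hT, mul_smul] at e2
  have e3 : g • x = t⁻¹ • x := by rw [eq_inv_smul_iff, e2]
  rw [e3, inv_smul_eq_iff, hx]

theorem Hyp.exists_fix2 (hi : 2 ≤ i) {x : Ω} (hx : t • x = x) :
    2 ∣ i ∧ ∃ y : Ω, t • y = y ∧ y ≠ x ∧ ∀ g ∈ KK t, g • x = x → g • y = y := by
  classical
  haveI : Fact (Nat.Prime 2) := ⟨Nat.prime_two⟩
  let Δ := {x : Ω // t • x = x}
  letI : MulAction (KK t) Δ :=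
    { smul := fun g y => ⟨(g : G) • (y : Ω), smul_fix g.2 y.2⟩
      one_smul := fun y => Subtype.ext (one_smul G (y : Ω))
      mul_smul := fun g k y => Subtype.ext (mul_smul (g : G) (k : G) (y : Ω)) }
  let φ : KK t →* Equiv.Perm Δ := MulAction.toPermHom (KK t) Δ
  have hφ : ∀ (g : KK t) (y : Δ), ((φ g y : Δ) : Ω) = (g : G) • (y : Ω) := fun g y => rfl
  have h2 : IsPGroup 2 φ.range := by
    rintro ⟨_, g, rfl⟩
    obtain ⟨k, m, hm, hkm⟩ := Nat.exists_eq_two_pow_mul_odd (orderOf_pos g).ne'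
    refine ⟨k, ?_⟩
    apply Subtype.ext
    change (φ g) ^ 2 ^ k = 1
    rw [← map_pow]
    ext y
    rw [hφ, Subgroup.coe_pow]
    apply h.odd_fix ((KK t).pow_mem g.2 _) _ y.2
    have e1 : orderOf ((g : G) ^ 2 ^ k) = m := by
      rw [orderOf_pow, Subgroup.orderOf_coe, hkm, Nat.gcd_eq_right (Dvd.intro m rfl),
        Nat.mul_div_cancel_left _ (by positivity)]
    rw [e1]; exact hm
  have htrans : ∀ y : Δ, ∃ g : KK t, φ g ⟨x, hx⟩ = y := by
    intro y
    by_cases hxy : x = (y : Ω)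
    · exact ⟨1, by rw [map_one]; exact Subtype.ext hxy⟩
    · obtain ⟨w, hw1, hw2⟩ := h.exists_swap hxy
      have hinv := h.inverts hxy hw1 hw2 (mem_DD.2 ⟨hx, y.2⟩)
      have ht' : t⁻¹ = t := inv_eq_of_mul_eq_one_right h.tt
      rw [ht', mul_inv_eq_iff_eq_mul] at hinv
      exact ⟨⟨w, mem_KK.2 hinv⟩, Subtype.ext hw1⟩
  have hcard : Nat.card Δ = i := h.card_fix
  have h2i : 2 ∣ i := by
    obtain ⟨k, hk⟩ := h2.card_orbit (⟨x, hx⟩ : Δ)
    have horb : orbit φ.range (⟨x, hx⟩ : Δ) = Set.univ := by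
      rw [Set.eq_univ_iff_forall]
      intro y
      obtain ⟨g, hg⟩ := htrans y
      exact ⟨⟨φ g, g, rfl⟩, hg⟩
    have hk' : Nat.card (orbit φ.range (⟨x, hx⟩ : Δ)) = 2 ^ k := hk
    rw [horb, Nat.card_univ, hcard] at hk'
    rw [hk']
    apply dvd_pow_self
    rintro rfl
    rw [pow_zero] at hk'
    omega
  refine ⟨h2i, ?_⟩
  let Kx : Subgroup (KK t) := (stabilizer G x).comap (KK t).subtype
  let P : Subgroup (Equiv.Perm Δ) := Kx.map φ
  have hP : IsPGroup 2 P := h2.to_le (by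
    rintro _ ⟨g, -, rfl⟩
    exact ⟨g, rfl⟩)
  have hfix : (⟨x, hx⟩ : Δ) ∈ fixedPoints P Δ := by
    rintro ⟨_, g, hg, rfl⟩
    apply Subtype.ext
    exact hg
  obtain ⟨b, hb, hb1⟩ := hP.exists_fixed_point_of_prime_dvd_card_of_fixed_point Δ (by rw [hcard]; exact h2i) hfix
  refine ⟨b, b.2, fun e => hb1 (Subtype.ext e.symm), ?_⟩
  intro g hg hgx
  have := hb ⟨φ ⟨g, hg⟩, ⟨g, hg⟩, hgx, rfl⟩
  exact congrArg Subtype.val this

/-- elements of `C(t)` fixing one fixed point of `t` fix them all -/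
theorem Hyp.fix_all (hi : 2 ≤ i) {x z : Ω} (hx : t • x = x) (hz : t • z = z) {g : G} (hg : g ∈ KK t) (hgx : g • x = x) :
    g • z = z := by
  obtain ⟨-, y, hy, hyx, hall⟩ := h.exists_fix2 hi hx
  by_cases hzx : z = x
  · rw [hzx, hgx]
  have e1 : DD G x z ≤ DD G x y := by
    intro k hk
    have hkK := h.DD_le_K (Ne.symm hzx) hx hz hk
    obtain ⟨hk1, hk2⟩ := mem_DD.1 hk
    exact mem_DD.2 ⟨hk1, hall k hkK hk1⟩
  have e2 := h.DD_eq_of_le (Ne.symm hzx) hyx.symm e1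
  have e3 : g ∈ DD G x z := by
    rw [e2]; exact mem_DD.2 ⟨hgx, hall g hg hgx⟩
  exact (mem_DD.1 e3).2

/-- the elements of `C(t)` moving a fixed point of `t` are involutions and invert the stabilizer -/
theorem Hyp.swap_of_move (hi : 2 ≤ i) {x : Ω} (hx : t • x = x) {g : G} (hg : g ∈ KK t) : g • (g • x) = x := by
  by_cases hgx : g • x = x
  · rw [hgx, hgx]
  · have hy := smul_fix hg hx
    obtain ⟨w, hw1, hw2⟩ := h.exists_swap (Ne.symm hgx)
    have hinv := h.inverts (Ne.symm hgx) hw1 hw2 (mem_DD.2 ⟨hx, hy⟩)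
    have ht' : t⁻¹ = t := inv_eq_of_mul_eq_one_right h.tt
    rw [ht', mul_inv_eq_iff_eq_mul] at hinv
    have hwK : w ∈ KK t := mem_KK.2 hinv
    have hm : w⁻¹ * g ∈ KK t := (KK t).mul_mem ((KK t).inv_mem hwK) hg
    have h1 : (w⁻¹ * g) • x = x := by rw [mul_smul, inv_smul_eq_iff, hw1]
    have h2 := h.fix_all hi hx hy hm h1
    rw [mul_smul, inv_smul_eq_iff, hw2] at h2
    exact h2

theorem Hyp.exists_fixed (hi : 2 ≤ i) : ∃ x y : Ω, x ≠ y ∧ t • x = x ∧ t • y = y := by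
  have h1 := h.card_fix
  have : 1 < Nat.card {x : Ω // t • x = x} := by omega
  obtain ⟨x, y, hxy⟩ := Finite.one_lt_card_iff_nontrivial.1 this
  exact ⟨x, y, fun e => hxy (Subtype.ext e), x.2, y.2⟩

theorem Hyp.elem (hi : 2 < i) {g : G} (hg : g ∈ KK t) : g * g = 1 := by
  classical
  have hi' : 2 ≤ i := hi.le
  -- three fixed points
  have h3 : ∃ x y z : Ω, x ≠ y ∧ x ≠ z ∧ y ≠ z ∧ t • x = x ∧ t • y = y ∧ t • z = z := by
    letI : Fintype {x : Ω // t • x = x} := Fintype.ofFinite _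
    have h1 := h.card_fix
    rw [Nat.card_eq_fintype_card] at h1
    obtain ⟨x, y, z, h1, h2, h3⟩ := Fintype.two_lt_card_iff.1 (by omega : 2 < Fintype.card {x : Ω // t • x = x})
    exact ⟨x, y, z, fun e => h1 (Subtype.ext e), fun e => h2 (Subtype.ext e), fun e => h3 (Subtype.ext e), x.2, y.2, z.2⟩
  obtain ⟨x, y, z, hxy, hxz, hyz, hx, hy, hz⟩ := h3
  have ht' : t⁻¹ = t := inv_eq_of_mul_eq_one_right h.tt
  have hsw : ∀ {a b : Ω} {w : G}, a ≠ b → t • a = a → t • b = b → w • a = b → w • b = a → w ∈ KK t := by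
    intro a b w hab ha hb h1 h2
    have hinv := h.inverts hab h1 h2 (mem_DD.2 ⟨ha, hb⟩)
    rw [ht', mul_inv_eq_iff_eq_mul] at hinv
    exact mem_KK.2 hinv
  by_cases hgx : g • x = x
  · -- `g` is in the stabilizer
    obtain ⟨w1, a1, a2⟩ := h.exists_swap hxy
    obtain ⟨w2, b1, b2⟩ := h.exists_swap hxz
    have hw1 := hsw hxy hx hy a1 a2
    have hw2 := hsw hxz hx hz b1 b2
    have hmove : (w1 * w2) • x ≠ x := by
      rw [mul_smul, b1]
      intro e
      rw [← a2] at e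
      exact hyz (smul_left_cancel _ e).symm
    have hin : ∀ w ∈ KK t, w • x ≠ x → w * g * w⁻¹ = g⁻¹ := by
      intro w hw hwx
      apply h.inverts (Ne.symm hwx) rfl (h.swap_of_move hi' hx hw)
      exact mem_DD.2 ⟨hgx, h.fix_all hi' hx (smul_fix hw hx) hg hgx⟩
    have c1 := hin w1 hw1 (by rw [a1]; exact hxy.symm)
    have c2 := hin w2 hw2 (by rw [b1]; exact hxz.symm)
    have c3 := hin (w1 * w2) ((KK t).mul_mem hw1 hw2) hmove
    have c4 : g = g⁻¹ := by
      rw [← c3]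
      calc g = (w1 * g⁻¹ * w1⁻¹) := by
            rw [show w1 * g⁻¹ * w1⁻¹ = (w1 * g * w1⁻¹)⁻¹ by group, c1, inv_inv]
        _ = w1 * (w2 * g * w2⁻¹) * w1⁻¹ := by rw [c2]
        _ = w1 * w2 * g * (w1 * w2)⁻¹ := by group
    calc g * g = g * g⁻¹ := by rw [← c4]
      _ = 1 := mul_inv_cancel g
  · exact h.swap_inv (Ne.symm hgx) rfl (h.swap_of_move hi' hx hg)

/-- the order of the centralizer -/
theorem Hyp.card_KD (hi : 2 ≤ i) {a b : Ω} (hab : a ≠ b) : Nat.card (KK t) = i * Nat.card (DD G a b) := by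
  classical
  obtain ⟨x, y, hxy, hx, hy⟩ := h.exists_fixed hi
  rw [h.card_DD hab hxy, ← h.card_fix, ← Nat.card_prod]
  symm
  have hc : ∀ z : {z : Ω // t • z = z}, ∃ w ∈ KK t, w • x = z := by
    intro z
    by_cases hxz : x = (z : Ω)
    · exact ⟨1, (KK t).one_mem, by rw [one_smul]; exact hxz⟩
    · obtain ⟨w, hw1, hw2⟩ := h.exists_swap hxz
      have hinv := h.inverts hxz hw1 hw2 (mem_DD.2 ⟨hx, z.2⟩)
      have ht' : t⁻¹ = t := inv_eq_of_mul_eq_one_right h.tt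
      rw [ht', mul_inv_eq_iff_eq_mul] at hinv
      exact ⟨w, mem_KK.2 hinv, hw1⟩
  choose c hc1 hc2 using hc
  refine Nat.card_congr (Equiv.ofBijective
    (fun p : {z : Ω // t • z = z} × DD G x y => (⟨c p.1 * (p.2 : G), (KK t).mul_mem (hc1 _) (h.DD_le_K hxy hx hy p.2.2)⟩ : KK t))
    ⟨?_, ?_⟩)
  · rintro ⟨z, d, hd⟩ ⟨z', d', hd'⟩ e
    have e1 : c z * d = c z' * d' := congrArg Subtype.val e
    have e2 : (z : Ω) = z' := by
      have e3 : (c z * d) • x = z := by rw [mul_smul, (mem_DD.1 hd).1, hc2]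
      have e4 : (c z' * d') • x = z' := by rw [mul_smul, (mem_DD.1 hd').1, hc2]
      rw [← e3, e1, e4]
    have e3 : z = z' := Subtype.ext e2
    subst e3
    have e4 : d = d' := mul_left_cancel e1
    subst e4
    rfl
  · rintro ⟨g, hg⟩
    refine ⟨⟨⟨g • x, smul_fix hg hx⟩, ⟨(c ⟨g • x, smul_fix hg hx⟩)⁻¹ * g, ?_⟩⟩, ?_⟩
    · have hm : (c ⟨g • x, smul_fix hg hx⟩)⁻¹ * g ∈ KK t := (KK t).mul_mem ((KK t).inv_mem (hc1 _)) hg
      have h1 : ((c ⟨g • x, smul_fix hg hx⟩)⁻¹ * g) • x = x := by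
        rw [mul_smul, inv_smul_eq_iff, hc2]
      exact mem_DD.2 ⟨h1, h.fix_all hi hx hy hm h1⟩
    · apply Subtype.ext
      change c ⟨g • x, smul_fix hg hx⟩ * ((c ⟨g • x, smul_fix hg hx⟩)⁻¹ * g) = g
      group

end

end Cfsg.Agent.JY.TT
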