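import Mathlib
import Cfsg.Agent.H21.SqCount

/-! The properties of the Sylow 2-subgroups of `PSU₃(2ⁿ)`, `n ≥ 3`, used in the characterisation. -/

set_option autoImplicit false

namespace Cfsg.Agent.JY.U

open Subgroup

/-- 2-groups of the type of a Sylow 2-subgroup of `PSU₃(2ⁿ)` -/
structure UT (S : Type*) [Group S] : Prop where
  inv : ∀ x : S, x * x = 1 ↔ x ∈ Subgroup.center S
  sq : ∀ x : S, x * x ∈ Subgroup.center S
  comm : ∀ x : S, x ∉ Subgroup.center S → ∀ a b : S, a * x = x * a → b * x = x * b → a * b = b * a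
  root : ∀ x : S, x ∉ Subgroup.center S → ∀ c ∈ Subgroup.center S, ∃ y, y * x = x * y ∧ y * y = c
  card : 8 ≤ Nat.card (Subgroup.center S)
  nc : ∃ x : S, x ∉ Subgroup.center S

theorem mem_center_congr {S T : Type*} [Group S] [Group T] (e : S ≃* T) (x : S) :
    e x ∈ Subgroup.center T ↔ x ∈ Subgroup.center S := by
  rw [Subgroup.mem_center_iff, Subgroup.mem_center_iff]
  constructor
  · intro h g
    apply e.injective
    rw [map_mul, map_mul]
    exact h (e g)
  · intro h g
    obtain ⟨g, rfl⟩ := e.surjective g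
    rw [← map_mul, ← map_mul, h g]

theorem UT.congr {S T : Type*} [Group S] [Group T] (e : S ≃* T) (h : UT S) : UT T where
  inv := fun x => by
    obtain ⟨x, rfl⟩ := e.surjective x
    rw [mem_center_congr, ← h.inv, ← map_mul, map_eq_one_iff _ e.injective]
  sq := fun x => by
    obtain ⟨x, rfl⟩ := e.surjective x
    rw [← map_mul, mem_center_congr]
    exact h.sq x
  comm := fun x hx a b ha hb => by
    obtain ⟨x, rfl⟩ := e.surjective x
    obtain ⟨a, rfl⟩ := e.surjective a
    obtain ⟨b, rfl⟩ := e.surjective b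
    rw [mem_center_congr] at hx
    rw [← map_mul, ← map_mul] at ha hb ⊢
    exact congrArg e (h.comm x hx a b (e.injective ha) (e.injective hb))
  root := fun x hx c hc => by
    obtain ⟨x, rfl⟩ := e.surjective x
    obtain ⟨c, rfl⟩ := e.surjective c
    rw [mem_center_congr] at hx hc
    obtain ⟨y, h1, h2⟩ := h.root x hx c hc
    exact ⟨e y, by rw [← map_mul, ← map_mul, h1], by rw [← map_mul, h2]⟩
  card := by
    rw [← Nat.card_congr (Equiv.subtypeEquiv e.toEquiv fun x => (mem_center_congr e x).symm)]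
    exact h.card
  nc := by
    obtain ⟨x, hx⟩ := h.nc
    exact ⟨e x, by rwa [mem_center_congr]⟩

open Cfsg.Agent.H21.Sq in
theorem ut_of_psu {F : Type*} [Field F] [Fintype F] {n : ℕ} (hn : 3 ≤ n) (hF : Fintype.card F = (2 ^ n) ^ 2)
    (P : Sylow 2 (Cfsg.PSU 3 F (2 ^ n))) : UT (P : Subgroup (Cfsg.PSU 3 F (2 ^ n))) := by
  classical
  have hFp : Fintype.card F = 2 ^ (2 * n) := by rw [hF, ← pow_mul, mul_comm n 2]
  have : Fact (Nat.Prime 2) := ⟨Nat.prime_two⟩
  have : CharP F 2 := charP_of_card_eq_prime_pow hFp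
  obtain ⟨D⟩ := psu_data hF P
  set φ := conjE hF with hφd
  have hφφ : ∀ x, φ (φ x) = x := conjE_conjE hF
  have hφ : φ ≠ 1 := conjE_ne_one hF
  have hnd := nrm_nondeg φ hφφ hφ
  have hcen : Subgroup.center (P : Subgroup (Cfsg.PSU 3 F (2 ^ n))) = D.ι.range := D.center_eq hnd
  have hcen' : ∀ t, t ∈ Subgroup.center (P : Subgroup (Cfsg.PSU 3 F (2 ^ n))) ↔ Multiplicative.toAdd (D.π t) = 0 := by
    intro t
    rw [hcen, MonoidHom.mem_range, ← D.exact]
    rfl
  have hn0 : ∀ w : F, nrm φ hφφ w = 0 ↔ w = 0 := by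
    intro w
    rw [Subtype.ext_iff]
    show w * φ w = 0 ↔ w = 0
    rw [mul_eq_zero, map_eq_zero_iff _ φ.injective, or_self]
  have h22 : ∀ x : F, x + x = 0 := fun x => CharTwo.add_self_eq_zero x
  have hcomm : ∀ s t : (P : Subgroup (Cfsg.PSU 3 F (2 ^ n))), s * t = t * s ↔
      Multiplicative.toAdd (D.π s) * φ (Multiplicative.toAdd (D.π t)) =
        Multiplicative.toAdd (D.π t) * φ (Multiplicative.toAdd (D.π s)) := by
    intro s t
    rw [D.commute_iff, Subtype.ext_iff]
    set a := Multiplicative.toAdd (D.π s)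
    set b := Multiplicative.toAdd (D.π t)
    show (a + b) * φ (a + b) = a * φ a + b * φ b ↔ _
    rw [map_add]
    constructor
    · intro h
      have e1 := h22 (b * φ a)
      linear_combination h - e1
    · intro h
      have e1 := h22 (b * φ a)
      linear_combination h + e1
  refine ⟨?_, ?_, ?_, ?_, ?_, ?_⟩
  · intro x
    rw [hcen', ← hn0, D.sq, map_eq_one_iff _ D.inj]
    exact Iff.rfl
  · intro x
    rw [hcen, D.sq]
    exact ⟨_, rfl⟩
  · intro x hx a b ha hb
    rw [hcomm] at ha hb ⊢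
    rw [hcen'] at hx
    set w := Multiplicative.toAdd (D.π x)
    set α := Multiplicative.toAdd (D.π a)
    set β := Multiplicative.toAdd (D.π b)
    have hφw : φ w ≠ 0 := (map_ne_zero_iff _ φ.injective).2 hx
    apply mul_left_cancel₀ (mul_ne_zero hx hφw)
    linear_combination (w * φ β) * ha - (w * φ α) * hb
  · intro x hx c hc
    rw [hcen] at hc
    obtain ⟨c, rfl⟩ := hc
    rw [hcen'] at hx
    set w := Multiplicative.toAdd (D.π x) with hw
    have hφw : φ w ≠ 0 := (map_ne_zero_iff _ φ.injective).2 hx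
    have hcf : φ (Multiplicative.toAdd c).1 = (Multiplicative.toAdd c).1 := (Multiplicative.toAdd c).2
    obtain ⟨r, hr⟩ := (PerfectField.toPerfectRing (K := F) 2).bijective_frobenius.2 ((Multiplicative.toAdd c).1 / (w * φ w))
    have hr' : r ^ 2 = (Multiplicative.toAdd c).1 / (w * φ w) := hr
    have hφr : φ r = r := by
      have h1 : (φ r) ^ 2 = r ^ 2 := by
        rw [← map_pow, hr', map_div₀, map_mul, hφφ, hcf, mul_comm]
      exact (frobenius_inj F 2) h1
    obtain ⟨y, hy⟩ := D.surj (Multiplicative.ofAdd (r * w))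
    refine ⟨y, ?_, ?_⟩
    · rw [hcomm, hy]
      show r * w * φ w = w * φ (r * w)
      rw [map_mul, hφr]; ring
    · rw [D.sq, hy]
      congr 1
      show Multiplicative.ofAdd (nrm φ hφφ (r * w)) = c
      have : nrm φ hφφ (r * w) = Multiplicative.toAdd c := by
        apply Subtype.ext
        show r * w * φ (r * w) = _
        rw [map_mul, hφr]
        have h2 : r ^ 2 * (w * φ w) = (Multiplicative.toAdd c).1 := by
          rw [hr', div_mul_cancel₀ _ (mul_ne_zero hx hφw)]
        linear_combination h2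
      rw [this]; rfl
  · rw [hcen, ← Nat.card_congr (MonoidHom.ofInjective D.inj).toEquiv]
    have h1 : Nat.card (Multiplicative (fixedAdd φ)) = 2 ^ n := card_fixedAdd hF
    rw [h1]
    calc 8 = 2 ^ 3 := by norm_num
      _ ≤ 2 ^ n := Nat.pow_le_pow_right (by norm_num) hn
  · obtain ⟨y, hy⟩ := D.surj (Multiplicative.ofAdd (1 : F))
    refine ⟨y, ?_⟩
    rw [hcen', hy]
    exact one_ne_zero

end Cfsg.Agent.JY.U
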